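import Mathlib

set_option autoImplicit false

/-!
General lemmas on perfect groups generated by conjugate involutions, centres and complements,
used for central extensions given by presentations.
-/

namespace Cfsg.Agent.Lib.Helper13.CE

open scoped commutatorElement

/-- a group generated by involutions which are all conjugate to one element and satisfy a
relation of odd length is perfect. -/
theorem commutator_eq_top_of_conj {G : Type*} [Group G] {ι : Type*} (s : ι → G)
    (hs : ∀ x, s x * s x = 1) (hgen : Subgroup.closure (Set.range s) = ⊤) (t : G)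
    (hconj : ∀ x, ∃ v, s x = v * t * v⁻¹) (W0 : List ι) (hW0 : (W0.map s).prod = 1)
    (hodd : W0.length % 2 = 1) : commutator G = ⊤ := by
  have hs' : ∀ x, Abelianization.of (s x) = Abelianization.of t := by
    intro x
    obtain ⟨v, hv⟩ := hconj x
    rw [hv, map_mul, map_mul, map_inv, mul_comm, inv_mul_cancel_left]
  have hw : ∀ W : List ι, Abelianization.of ((W.map s).prod) = Abelianization.of t ^ W.length := by
    intro W
    induction W with
    | nil => simp
    | cons x W ih => rw [List.map_cons, List.prod_cons, map_mul, ih, hs', List.length_cons, pow_succ']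
  have h2 : Abelianization.of t ^ 2 = 1 := by
    cases W0 with
    | nil => simp at hodd
    | cons x W =>
      have := congrArg Abelianization.of (hs x)
      rw [map_mul, hs', map_one] at this
      rw [pow_two]; exact this
  have h1 : Abelianization.of t = 1 := by
    have h3 := hw W0
    rw [hW0, map_one] at h3
    have h4 : W0.length = 2 * (W0.length / 2) + 1 := by omega
    rw [h4, pow_succ, pow_mul, h2, one_pow, one_mul] at h3
    exact h3.symm
  rw [eq_top_iff, ← hgen, Subgroup.closure_le]
  rintro _ ⟨x, rfl⟩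
  show s x ∈ commutator G
  rw [← Abelianization.ker_of, MonoidHom.mem_ker, hs', h1]

/-- the braid relation makes two involutions conjugate. -/
theorem conj_of_braid {G : Type*} [Group G] (a b : G) (ha : a * a = 1) (hb : b * b = 1)
    (h3 : (a * b) ^ 3 = 1) : b = (a * b) * a * (a * b)⁻¹ := by
  have ha' : a⁻¹ = a := inv_eq_of_mul_eq_one_right ha
  have hb' : b⁻¹ = b := inv_eq_of_mul_eq_one_right hb
  have h : a * b * (a * b) * (a * b) = 1 := by
    have := h3
    simp only [pow_succ, pow_zero, one_mul] at this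
    exact this
  have e : a * b * a * (b * a) = b⁻¹ := by
    apply eq_inv_of_mul_eq_one_left
    rw [← h]; group
  rw [mul_inv_rev, ha', hb', e, hb']

/-- the centre of a perfect simple group is trivial. -/
theorem center_eq_bot_of_simple {K : Type*} [Group K] [IsSimpleGroup K]
    (hperf : commutator K = ⊤) : Subgroup.center K = ⊥ := by
  rcases IsSimpleGroup.eq_bot_or_eq_top_of_normal (Subgroup.center K) inferInstance with h | h
  · exact h
  · exfalso
    rw [← commutator_eq_bot_iff_center_eq_top, hperf] at h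
    exact top_ne_bot h

/-- the centre of a central extension of a group with trivial centre. -/
theorem center_eq_of_quotient {H K : Type*} [Group H] [Group K] (T : Subgroup H) [T.Normal]
    (hT : T ≤ Subgroup.center H) (e : H ⧸ T ≃* K) (hK : Subgroup.center K = ⊥) :
    Subgroup.center H = T := by
  apply le_antisymm _ hT
  intro z hz
  have h1 : e (QuotientGroup.mk z) ∈ Subgroup.center K := by
    rw [Subgroup.mem_center_iff]
    intro k
    obtain ⟨q, rfl⟩ := e.surjective k
    induction q using QuotientGroup.induction_on with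
    | H h =>
      rw [← map_mul, ← map_mul, ← QuotientGroup.mk_mul, ← QuotientGroup.mk_mul,
        Subgroup.mem_center_iff.mp hz h]
  rw [hK, Subgroup.mem_bot] at h1
  have h2 : (QuotientGroup.mk z : H ⧸ T) = 1 := (MulEquiv.map_eq_one_iff e).mp h1
  exact (QuotientGroup.eq_one_iff z).mp h2

theorem commutator_central_left {H : Type*} [Group H] (z a g : H)
    (c : ∀ x : H, x * z = z * x) : ⁅z * a, g⁆ = ⁅a, g⁆ := by
  rw [commutatorElement_def, commutatorElement_def]
  calc z * a * g * (z * a)⁻¹ * g⁻¹ = (z * (a * g * a⁻¹)) * z⁻¹ * g⁻¹ := by group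
    _ = ((a * g * a⁻¹) * z) * z⁻¹ * g⁻¹ := by rw [c (a * g * a⁻¹)]
    _ = a * g * a⁻¹ * g⁻¹ := by group

theorem commutator_central_right {H : Type*} [Group H] (z a b : H)
    (c : ∀ x : H, x * z = z * x) : ⁅a, z * b⁆ = ⁅a, b⁆ := by
  rw [commutatorElement_def, commutatorElement_def]
  calc a * (z * b) * a⁻¹ * (z * b)⁻¹ = (a * z) * (b * a⁻¹ * b⁻¹) * z⁻¹ := by group
    _ = (z * a) * (b * a⁻¹ * b⁻¹) * z⁻¹ := by rw [c a]
    _ = (z * (a * b * a⁻¹ * b⁻¹)) * z⁻¹ := by group
    _ = ((a * b * a⁻¹ * b⁻¹) * z) * z⁻¹ := by rw [c (a * b * a⁻¹ * b⁻¹)]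
    _ = a * b * a⁻¹ * b⁻¹ := by group

/-- a non-trivial central subgroup of a perfect group has no complement. -/
theorem no_complement_of_perfect {H : Type*} [Group H] (Z : Subgroup H)
    (hZ : Z ≤ Subgroup.center H) (hperf : commutator H = ⊤) (hZne : Z ≠ ⊥) (L : Subgroup H) :
    ¬ Z.IsComplement' L := by
  intro hc
  have hL : L = ⊤ := by
    rw [eq_top_iff, ← hperf, commutator_def, Subgroup.commutator_le]
    intro g1 _ g2 _
    obtain ⟨⟨⟨z1, hz1⟩, ⟨l1, hl1⟩⟩, h1⟩ := hc.2 g1
    obtain ⟨⟨⟨z2, hz2⟩, ⟨l2, hl2⟩⟩, h2⟩ := hc.2 g2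
    have h1' : z1 * l1 = g1 := h1
    have h2' : z2 * l2 = g2 := h2
    have c1 : ∀ g : H, g * z1 = z1 * g := Subgroup.mem_center_iff.mp (hZ hz1)
    have c2 : ∀ g : H, g * z2 = z2 * g := Subgroup.mem_center_iff.mp (hZ hz2)
    rw [← h1', ← h2', commutator_central_left z1 l1 _ c1, commutator_central_right z2 l1 l2 c2,
      commutatorElement_def]
    exact L.mul_mem (L.mul_mem (L.mul_mem hl1 hl2) (L.inv_mem hl1)) (L.inv_mem hl2)
  rw [hL] at hc
  exact hZne (Subgroup.isComplement'_top_right.mp hc)

end Cfsg.Agent.Lib.Helper13.CE
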