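import Cfsg.Agent.Lib.Helper13.CosetSimple

set_option autoImplicit false

/-!
Order bounds for Coxeter-graph presented groups from an index certificate over the image of a
subgroup, generated by words, of the presented group of a sub-diagram.
-/

namespace Cfsg.Agent.Lib.Helper13.CE

open Cfsg.Spor

variable {α : Type}

theorem presHom_words {β : Type} [DecidableEq α] [DecidableEq β] (edges : List (α × ℕ × α))
    (extra : List (FreeGroup α)) (edges' : List (β × ℕ × β)) (extra' : List (FreeGroup β))
    (e : β → α) (hnodes : ∀ x ∈ coxNodes edges', e x ∈ coxNodes edges)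
    (hlab : ∀ x ∈ coxNodes edges', ∀ y ∈ coxNodes edges',
      coxLabel edges' x y = coxLabel edges (e x) (e y))
    (hextra : ∀ r ∈ extra', PresentedGroup.mk (coxRelators edges ∪ {r | r ∈ extra})
      (FreeGroup.map e r) = 1) (W : List β) :
    presHom edges extra edges' extra' e hnodes hlab hextra
      (PresentedGroup.mk (coxRelators edges' ∪ {r | r ∈ extra'}) ((W.map FreeGroup.of).prod)) =
    PresentedGroup.mk (coxRelators edges ∪ {r | r ∈ extra})
      (((W.map e).map FreeGroup.of).prod) := by
  induction W with
  | nil => simp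
  | cons x W ih =>
    rw [List.map_cons, List.prod_cons, map_mul, map_mul, ih, List.map_cons, List.map_cons,
      List.prod_cons, map_mul]
    congr 1

/-- the order bound for a Coxeter-graph presented group from an index certificate over the image
of a subgroup, generated by words, of the presented group of a sub-diagram. -/
theorem card_le_of_presHom_words {β : Type} [DecidableEq α] [DecidableEq β]
    (edges : List (α × ℕ × α)) (extra : List (FreeGroup α)) (edges' : List (β × ℕ × β))
    (extra' : List (FreeGroup β)) (e : β → α)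
    (hnodes : ∀ x ∈ coxNodes edges', e x ∈ coxNodes edges)
    (hlab : ∀ x ∈ coxNodes edges', ∀ y ∈ coxNodes edges',
      coxLabel edges' x y = coxLabel edges (e x) (e y))
    (hextra : ∀ r ∈ extra', PresentedGroup.mk (coxRelators edges ∪ {r | r ∈ extra})
      (FreeGroup.map e r) = 1)
    (subs' : List (List β)) (m : ℕ)
    (hfin : Finite (PresentedGroup (coxRelators edges' ∪ {r | r ∈ extra'})))
    (hm : Nat.card (Subgroup.closure {g | ∃ W ∈ subs', g = PresentedGroup.mk
      (coxRelators edges' ∪ {r | r ∈ extra'}) ((W.map FreeGroup.of).prod)}) ≤ m)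
    (subs : List (List α)) (hsubs : ∀ W ∈ subs, ∃ W' ∈ subs', W = W'.map e) (n : ℕ)
    (f : PresentedGroup (coxRelators edges ∪ {r | r ∈ extra}) ⧸
      Subgroup.closure {g | ∃ W ∈ subs, g = PresentedGroup.mk
        (coxRelators edges ∪ {r | r ∈ extra}) ((W.map FreeGroup.of).prod)} ≃ Fin n) :
    Finite (PresentedGroup (coxRelators edges ∪ {r | r ∈ extra})) ∧
      Nat.card (PresentedGroup (coxRelators edges ∪ {r | r ∈ extra})) ≤ n * m := by
  let ι := presHom edges extra edges' extra' e hnodes hlab hextra
  let J : Subgroup (PresentedGroup (coxRelators edges' ∪ {r | r ∈ extra'})) :=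
    Subgroup.closure {g | ∃ W ∈ subs', g = PresentedGroup.mk
      (coxRelators edges' ∪ {r | r ∈ extra'}) ((W.map FreeGroup.of).prod)}
  have hH : Subgroup.closure {g | ∃ W ∈ subs, g = PresentedGroup.mk
      (coxRelators edges ∪ {r | r ∈ extra}) ((W.map FreeGroup.of).prod)} ≤ J.map ι := by
    rw [Subgroup.closure_le]
    rintro g ⟨W, hW, rfl⟩
    obtain ⟨W', hW', rfl⟩ := hsubs W hW
    exact ⟨_, Subgroup.subset_closure ⟨W', hW', rfl⟩,
      presHom_words edges extra edges' extra' e hnodes hlab hextra W'⟩
  haveI : Finite (J.map ι) := Finite.of_surjective _ (ι.subgroupMap_surjective J)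
  have h1 : Nat.card (J.map ι) ≤ Nat.card J :=
    Nat.card_le_card_of_surjective _ (ι.subgroupMap_surjective J)
  haveI : Finite (Subgroup.closure {g | ∃ W ∈ subs, g = PresentedGroup.mk
      (coxRelators edges ∪ {r | r ∈ extra}) ((W.map FreeGroup.of).prod)}) :=
    Finite.of_injective _ (Subgroup.inclusion_injective hH)
  have h2 : Nat.card (Subgroup.closure {g | ∃ W ∈ subs, g = PresentedGroup.mk
      (coxRelators edges ∪ {r | r ∈ extra}) ((W.map FreeGroup.of).prod)}) ≤ Nat.card (J.map ι) :=
    Nat.card_le_card_of_injective _ (Subgroup.inclusion_injective hH)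
  have h3 : Nat.card J ≤ m := hm
  exact card_le_of_index _ m n (by omega) f

end Cfsg.Agent.Lib.Helper13.CE
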