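import Cfsg.Agent.Lib.Helper13.CosetSimple
import Cfsg.Agent.Lib.Helper13.CosetCover
import Cfsg.Prelude.Def_SporadicB

set_option autoImplicit false

/-!
Classes of 3-transpositions from a rank three action given by a coset enumeration certificate:
the conjugates of an involution centralised by the point stabiliser, their number, their
centralisers, and the transport of non-split double covers along isomorphisms.
-/

namespace Cfsg.Agent.Lib.Helper13.CE

/-- a non-split double cover, transported along an isomorphism. -/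
theorem nonsplit_congr {H H' K : Type*} [Group H] [Group H'] [Group K] (e : H ≃* H')
    (h : Cfsg.IsNonsplitDoubleCover H K) : Cfsg.IsNonsplitDoubleCover H' K := by
  obtain ⟨h1, ⟨q⟩, h3⟩ := h
  have hmem : ∀ z : H, z ∈ Subgroup.center H ↔ e z ∈ Subgroup.center H' := by
    intro z
    rw [Subgroup.mem_center_iff, Subgroup.mem_center_iff]
    constructor
    · intro hz g
      obtain ⟨g', rfl⟩ := e.surjective g
      rw [← map_mul, ← map_mul, hz g']
    · intro hz g
      apply e.injective
      rw [map_mul, map_mul, hz (e g)]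
  have hmap : (Subgroup.center H).map (e : H →* H') = Subgroup.center H' := by
    ext x
    rw [Subgroup.mem_map]
    constructor
    · rintro ⟨z, hz, rfl⟩
      exact (hmem z).mp hz
    · intro hx
      exact ⟨e.symm x, (hmem _).mpr (by simpa using hx), by simp⟩
  refine ⟨?_, ?_, ?_⟩
  · rw [← hmap, Subgroup.card_map_of_injective e.injective]; exact h1
  · exact ⟨(QuotientGroup.congr _ _ e hmap).symm.trans q⟩
  · intro L' hc
    apply h3 (L'.comap (e : H →* H'))
    rw [Subgroup.isComplement'_def, Subgroup.isComplement_iff_existsUnique] at hc ⊢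
    intro g
    obtain ⟨⟨⟨z', hz'⟩, ⟨l', hl'⟩⟩, hx, huniq⟩ := hc (e g)
    have hx' : z' * l' = e g := hx
    refine ⟨(⟨e.symm z', (hmem _).mpr (by simpa using hz')⟩,
      ⟨e.symm l', by simpa [Subgroup.mem_comap] using hl'⟩), ?_, ?_⟩
    · show e.symm z' * e.symm l' = g
      apply e.injective
      simpa using hx'
    · rintro ⟨⟨z, hz⟩, ⟨l, hl⟩⟩ hy
      have hy' : z * l = g := hy
      have h5 := huniq (⟨e z, (hmem z).mp hz⟩, ⟨e l, hl⟩)
        (by show e z * e l = e g; rw [← map_mul, hy'])
      have h6 : e z = z' := congrArg (fun x => (x.1 : H')) h5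
      have h7 : e l = l' := congrArg (fun x => (x.2 : H')) h5
      apply Prod.ext
      · apply Subtype.ext
        show z = e.symm z'
        rw [← h6]; simp
      · apply Subtype.ext
        show l = e.symm l'
        rw [← h7]; simp

/-- the centraliser of a conjugate is isomorphic to the centraliser. -/
noncomputable def centralizerConjEquiv {G : Type*} [Group G] (t g : G) :
    Subgroup.centralizer ({t} : Set G) ≃* Subgroup.centralizer ({g * t * g⁻¹} : Set G) where
  toFun x := ⟨g * x * g⁻¹, by
    have hx := x.2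
    rw [Subgroup.mem_centralizer_iff] at hx ⊢
    intro y hy
    rw [Set.mem_singleton_iff] at hy
    subst hy
    have h1 := hx t (Set.mem_singleton t)
    calc g * t * g⁻¹ * (g * x * g⁻¹) = g * (t * x) * g⁻¹ := by group
      _ = g * (x * t) * g⁻¹ := by rw [h1]
      _ = g * x * g⁻¹ * (g * t * g⁻¹) := by group⟩
  invFun y := ⟨g⁻¹ * y * g, by
    have hy := y.2
    rw [Subgroup.mem_centralizer_iff] at hy ⊢
    intro z hz
    rw [Set.mem_singleton_iff] at hz
    subst hz
    have h1 := hy (g * z * g⁻¹) (Set.mem_singleton _)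
    calc z * (g⁻¹ * y * g) = g⁻¹ * (g * z * g⁻¹ * y) * g := by group
      _ = g⁻¹ * (y * (g * z * g⁻¹)) * g := by rw [h1]
      _ = g⁻¹ * y * g * z := by group⟩
  left_inv x := by
    apply Subtype.ext
    show g⁻¹ * (g * x * g⁻¹) * g = x
    group
  right_inv y := by
    apply Subtype.ext
    show g * (g⁻¹ * y * g) * g⁻¹ = y
    group
  map_mul' x y := by
    apply Subtype.ext
    show g * (x * y) * g⁻¹ = g * x * g⁻¹ * (g * y * g⁻¹)
    group

section transp

variable {α : Type} {G : Type*} [Group G] {n k : ℕ}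
variable [NeZero n] (X : Act α G n k) (H : Subgroup G) (f : G ⧸ H ≃ Fin n)
  (hf : ∀ g : G, f (QuotientGroup.mk g) = X.φ g 0)

include hf

/-- the products of two conjugates of an involution centralised by the point stabiliser of a
rank three action have order at most three, if this holds for one conjugate in each orbit. -/
theorem Act.three_transp (subs : List (List α))
    (hH : H = Subgroup.closure {g | ∃ W ∈ subs, g = X.ev W})
    (o1 o2 : List ℕ) (m1 m2 : ℕ) (hn : n = 1 + m1 + m2)
    (ho1 : orbOK X.nets n subs o1 1 m1 = true)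
    (ho2 : orbOK X.nets n subs o2 (1 + m1) m2 = true)
    (t : G) (hcent : ∀ h ∈ H, h * t = t * h) (ht : t * t = 1)
    (u1 u2 : G)
    (hu1 : 1 ≤ ((X.φ u1 0 : Fin n) : ℕ) ∧ ((X.φ u1 0 : Fin n) : ℕ) < 1 + m1)
    (hu2 : 1 + m1 ≤ ((X.φ u2 0 : Fin n) : ℕ) ∧ ((X.φ u2 0 : Fin n) : ℕ) < 1 + m1 + m2)
    (h1 : (t * (u1 * t * u1⁻¹)) ^ 2 = 1) (h2 : (t * (u2 * t * u2⁻¹)) ^ 3 = 1) :
    ∀ d ∈ conjugatesOf t, ∀ e ∈ conjugatesOf t, (d * e) ^ 2 = 1 ∨ (d * e) ^ 3 = 1 := by
  have key : ∀ k : G, (t * (k * t * k⁻¹)) ^ 2 = 1 ∨ (t * (k * t * k⁻¹)) ^ 3 = 1 := by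
    intro k
    have hcase : ∀ (u : G) (m : ℕ), (t * (u * t * u⁻¹)) ^ m = 1 →
        (∃ h ∈ H, X.φ h (X.φ u 0) = X.φ k 0) → (t * (k * t * k⁻¹)) ^ m = 1 := by
      intro u m hm ⟨h, hh, he⟩
      have h3 : X.φ k 0 = X.φ (h * u) 0 := by
        rw [map_mul, Equiv.Perm.coe_mul, Function.comp_apply, he]
      have h4 := X.conj_eq_of_φ_eq H f hf t hcent k (h * u) h3
      have h5 : h * t * h⁻¹ = t := by rw [hcent h hh]; group
      have h6 : t * (k * t * k⁻¹) = h * (t * (u * t * u⁻¹)) * h⁻¹ := by
        rw [h4]
        calc t * (h * u * t * (h * u)⁻¹) = (h * t * h⁻¹) * (h * u * t * (h * u)⁻¹) := by rw [h5]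
          _ = h * (t * (u * t * u⁻¹)) * h⁻¹ := by group
      rw [h6, conj_pow, hm]; group
    by_cases hc0 : ((X.φ k 0 : Fin n) : ℕ) = 0
    · left
      have hk : k ∈ H := by
        rw [X.mem_iff_φ_zero H f hf]
        apply Fin.ext
        rw [hc0]; simp
      have h5 : k * t * k⁻¹ = t := by rw [hcent k hk]; group
      rw [h5, ht, one_pow]
    · by_cases hc1 : ((X.φ k 0 : Fin n) : ℕ) < 1 + m1
      · left
        exact hcase u1 2 h1
          (X.trans_on_range H f hf subs hH o1 1 m1 ho1 _ _ hu1 ⟨by omega, hc1⟩)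
      · right
        exact hcase u2 3 h2
          (X.trans_on_range H f hf subs hH o2 (1 + m1) m2 ho2 _ _ hu2
            ⟨by omega, by have := (X.φ k 0).2; omega⟩)
  intro d hd e he
  obtain ⟨a, rfl⟩ := isConj_iff.mp hd
  obtain ⟨b, rfl⟩ := isConj_iff.mp he
  have h7 : a * t * a⁻¹ * (b * t * b⁻¹) = a * (t * ((a⁻¹ * b) * t * (a⁻¹ * b)⁻¹)) * a⁻¹ := by
    group
  rw [h7, conj_pow, conj_pow]
  rcases key (a⁻¹ * b) with h | h
  · left; rw [h]; group
  · right; rw [h]; group

/-- the centraliser of a non-central element centralised by the point stabiliser of a primitive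
action is the point stabiliser. -/
theorem Act.centralizer_eq (hprim : @MulAction.IsPreprimitive G (Fin n) (X.mulAction).toSMul)
    (hn : 2 ≤ n) (t : G) (hcent : ∀ h ∈ H, h * t = t * h)
    (ht : t ∉ Subgroup.center G) : Subgroup.centralizer ({t} : Set G) = H := by
  let _ := X.mulAction
  have : Nontrivial (Fin n) := Fin.nontrivial_iff_two_le.mpr hn
  have hst : MulAction.stabilizer G (0 : Fin n) = H := by
    ext g
    rw [MulAction.mem_stabilizer_iff, X.mem_iff_φ_zero H f hf]
    rfl
  have hco : IsCoatom H := by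
    rw [← hst]
    exact MulAction.IsPreprimitive.isCoatom_stabilizer_of_isPreprimitive G (0 : Fin n)
  have hle : H ≤ Subgroup.centralizer ({t} : Set G) := by
    intro h hh
    rw [Subgroup.mem_centralizer_iff]
    intro y hy
    rw [Set.mem_singleton_iff] at hy
    subst hy
    exact (hcent h hh).symm
  rcases eq_or_lt_of_le hle with h | h
  · exact h.symm
  · exfalso
    have h1 := hco.2 _ h
    apply ht
    rw [Subgroup.mem_center_iff]
    intro g
    have h2 : g ∈ Subgroup.centralizer ({t} : Set G) := by rw [h1]; trivial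
    rw [Subgroup.mem_centralizer_iff] at h2
    exact (h2 t (Set.mem_singleton t)).symm

/-- the number of conjugates of an element whose centraliser is the point stabiliser. -/
theorem Act.card_conjugatesOf (t : G) (hC : Subgroup.centralizer ({t} : Set G) = H) :
    Nat.card (conjugatesOf t) = n := by
  have hcent : ∀ h ∈ H, h * t = t * h := by
    intro h hh
    rw [← hC, Subgroup.mem_centralizer_iff] at hh
    exact (hh t (Set.mem_singleton t)).symm
  let F : Fin n → conjugatesOf t := fun c =>
    ⟨Classical.choose (X.exists_φ_zero_eq H f hf c) * t *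
      (Classical.choose (X.exists_φ_zero_eq H f hf c))⁻¹,
      isConj_iff.mpr ⟨_, rfl⟩⟩
  have hF : Function.Bijective F := by
    constructor
    · intro c c' hcc
      have hr := Classical.choose_spec (X.exists_φ_zero_eq H f hf c)
      have hr' := Classical.choose_spec (X.exists_φ_zero_eq H f hf c')
      have h1 : Classical.choose (X.exists_φ_zero_eq H f hf c) * t *
          (Classical.choose (X.exists_φ_zero_eq H f hf c))⁻¹ =
          Classical.choose (X.exists_φ_zero_eq H f hf c') * t *
          (Classical.choose (X.exists_φ_zero_eq H f hf c'))⁻¹ := congrArg Subtype.val hcc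
      generalize Classical.choose (X.exists_φ_zero_eq H f hf c) = a at h1 hr
      generalize Classical.choose (X.exists_φ_zero_eq H f hf c') = b at h1 hr'
      have h2 : b⁻¹ * a ∈ H := by
        rw [← hC, Subgroup.mem_centralizer_iff]
        intro y hy
        rw [Set.mem_singleton_iff] at hy
        subst hy
        calc y * (b⁻¹ * a) = b⁻¹ * (b * y * b⁻¹) * a := by group
          _ = b⁻¹ * (a * y * a⁻¹) * a := by rw [h1]
          _ = b⁻¹ * a * y := by group
      rw [X.mem_iff_φ_zero H f hf, map_mul, Equiv.Perm.coe_mul, Function.comp_apply, hr,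
        map_inv] at h2
      rw [← hr']
      have h3 := congrArg (X.φ b) h2
      simpa using h3
    · rintro ⟨d, hd⟩
      obtain ⟨a, rfl⟩ := isConj_iff.mp hd
      refine ⟨X.φ a 0, ?_⟩
      apply Subtype.ext
      have hr := Classical.choose_spec (X.exists_φ_zero_eq H f hf (X.φ a 0))
      exact X.conj_eq_of_φ_eq H f hf t hcent _ _ hr
  rw [← Nat.card_eq_of_bijective F hF, Nat.card_fin]

end transp

end Cfsg.Agent.Lib.Helper13.CE
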