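import Cfsg.Agent.Lib.Helper13.F23K9A0
import Cfsg.Agent.Lib.Helper13.F23K9A1
import Cfsg.Agent.Lib.Helper13.F23K9A2
import Cfsg.Agent.Lib.Helper13.F23K9A3
import Cfsg.Agent.Lib.Helper13.F23K9A4
import Cfsg.Agent.Lib.Helper13.F23K9A5
import Cfsg.Agent.Lib.Helper13.F23K9A6
import Cfsg.Agent.Lib.Helper13.F23K9A7
set_option autoImplicit false
set_option maxRecDepth 100000

open Cfsg.Agent.Lib.Helper13.CE

namespace Cfsg.Agent.Lib.Helper13.F23K9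

theorem hT : treeOK par 9 tree Zs0 = true := by decide +kernel
theorem hcov : coverOK par ⟨Zs1, Ls6, 142, parB.AR.flatten.reverse, parB.AS.reverse⟩ = true := by decide +kernel
theorem hrun : runA par ⟨Zs0, List.replicate 9 0, 1, [], []⟩ stepsA = some ⟨Zs1, Ls6, 142, parB.AR.flatten.reverse, parB.AS.reverse⟩ :=
  (runA_chunk_cons2 par Zs0 (List.replicate 9 0) 1 sA0 _ Zs1 Ls1 6 _ _ _ hC0
    (runA_chunk_cons2 par Zs1 Ls1 6 sA1 _ Zs1 Ls2 18 _ _ _ hC1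
    (runA_chunk_cons2 par Zs1 Ls2 18 sA2 _ Zs1 Ls3 49 _ _ _ hC2
    (runA_chunk_cons2 par Zs1 Ls3 49 sA3 _ Zs1 Ls4 59 _ _ _ hC3
    (runA_chunk_cons2 par Zs1 Ls4 59 sA4 _ Zs1 Ls5 118 _ _ _ hC4
    (runA_chunk_cons2 par Zs1 Ls5 118 sA5 _ Zs1 Ls6 142 _ _ _ hC5
    (runA_chunk_cons2 par Zs1 Ls6 142 sA6 _ Zs1 Ls6 142 _ _ _ hC6
    (runA_of_chunkOK par Zs1 Ls6 142 sA7 Zs1 Ls6 142 _ _ hC7)))))))).trans
    (some_StA_eq _ _ _ _ _ _ rfl rfl rfl (by decide +kernel) (by decide +kernel))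
theorem hA : checkA par 9 tree stepsA parB.AR.flatten parB.AS 142 = true :=
  checkA_of_parts par 9 tree stepsA _ _ 142 Zs0 Zs1 Ls6 hT hrun hcov

end Cfsg.Agent.Lib.Helper13.F23K9
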