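import Cfsg.Agent.Lib.Helper13.Fi22SData
set_option autoImplicit false
set_option maxRecDepth 100000

open Cfsg.Agent.Lib.Helper13.CE

namespace Cfsg.Agent.Lib.Helper13.Fi22S

theorem hchain : chainOK Fi22x14080.nets 14080 gens 9 levels = true := by decide +kernel
theorem hprod : (levels.map (fun l => l.2.2)).prod = 64561751654400 := by decide +kernel
theorem hconj : Fi22x14080.lettersW.all (fun x => relOK Fi22x14080.nets 14 (conjW x ++ Tw ++ (conjW x).reverse ++ [x])) = true := by decide +kernel
theorem hW0 : relOK Fi22x14080.nets 14 W0 = true := by decide +kernel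
theorem hcomm : Fi22x3510.subsW.all (fun W => relOK Fi22x14080.nets 14 (W ++ Tw ++ W.reverse ++ Tw.reverse)) = true := by decide +kernel
theorem hS : (Fi22x14080.subsW.all (fun W => Nat.beq (wapply Fi22x3510.nets W Smask) Smask) && (Smask.testBit 0 && (!Smask.testBit qpt && Nat.blt qpt 3510))) = true := by decide +kernel

end Cfsg.Agent.Lib.Helper13.Fi22S
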