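import Cfsg.Agent.Lib.Helper13.Fi22x14080A
import Cfsg.Agent.Lib.Helper13.Fi22x14080B
import Cfsg.Agent.Lib.Helper13.Fi22x3510A
import Cfsg.Agent.Lib.Helper13.Fi22x3510B
import Cfsg.Agent.Lib.Helper13.F22K8P
import Cfsg.Agent.Lib.Helper13.Fi22SChk
set_option autoImplicit false
set_option maxRecDepth 100000

/-!
The presented Fischer group `Fi₂₂`: its order, a faithful rank three action on 14080 points, the
rank three action on 3510 points, and simplicity.
-/

open Cfsg.Agent.Lib.Helper13.CE Cfsg.Spor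

namespace Cfsg.Agent.Lib.Helper13.Fi22O

theorem hnodes : ∀ x : Fi22.Gen, x ∈ coxNodes Fi22.edges := by
  intro x; cases x <;> decide

theorem hlettersA : ∀ x : Fi22.Gen, x ∈ Fi22x14080.par.letters := by
  intro x; cases x <;> decide

theorem hlettersB : ∀ x : Fi22.Gen, x ∈ Fi22x3510.par.letters := by
  intro x; cases x <;> decide

theorem hidxA : Function.Injective Fi22x14080.par.idx := by
  intro x y h
  cases x <;> cases y <;> first | rfl | exact absurd h (by decide)

theorem hidxB : Function.Injective Fi22x3510.par.idx := by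
  intro x y h
  cases x <;> cases y <;> first | rfl | exact absurd h (by decide)

theorem hextraA : List.Forall₂ (fun r W => ∀ (K : Type) [Group K] (s : Fi22.Gen → K),
    (∀ x, s x * s x = 1) → FreeGroup.lift s r = (W.map s).prod) Fi22.extra Fi22x14080.extraW := by
  refine List.Forall₂.cons ?_ (List.Forall₂.cons ?_ (List.Forall₂.cons ?_ (List.Forall₂.nil)))
  all_goals
    intro K _ s hs
    simp only [Fi22.a, Fi22.b, Fi22.c, Fi22.d, Fi22.e, Fi22.f, Fi22.g, Fi22.h, Fi22.i,
      map_mul, FreeGroup.lift_apply_of, List.map_cons, List.map_nil, List.prod_cons,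
      List.prod_nil, pow_succ, pow_zero, one_mul, mul_one, mul_assoc]

theorem hextraB : List.Forall₂ (fun r W => ∀ (K : Type) [Group K] (s : Fi22.Gen → K),
    (∀ x, s x * s x = 1) → FreeGroup.lift s r = (W.map s).prod) Fi22.extra Fi22x3510.extraW := by
  refine List.Forall₂.cons ?_ (List.Forall₂.cons ?_ (List.Forall₂.cons ?_ (List.Forall₂.nil)))
  all_goals
    intro K _ s hs
    simp only [Fi22.a, Fi22.b, Fi22.c, Fi22.d, Fi22.e, Fi22.f, Fi22.g, Fi22.h, Fi22.i,
      map_mul, FreeGroup.lift_apply_of, List.map_cons, List.map_nil, List.prod_cons,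
      List.prod_nil, pow_succ, pow_zero, one_mul, mul_one, mul_assoc]

/-- the relators. -/
abbrev Rel : Set (FreeGroup Fi22.Gen) := coxRelators Fi22.edges ∪ {r | r ∈ Fi22.extra}

/-- the subgroup generated by `b, …, i`. -/
def HA : Subgroup Fi22 :=
  Subgroup.closure {g | ∃ W ∈ Fi22x14080.par.subs,
    g = PresentedGroup.mk Rel ((W.map FreeGroup.of).prod)}

/-- the subgroup generated by `a, c, …, i` and `(abcdeh)^5`. -/
def HB : Subgroup Fi22 :=
  Subgroup.closure {g | ∃ W ∈ Fi22x3510.par.subs,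
    g = PresentedGroup.mk Rel ((W.map FreeGroup.of).prod)}

theorem mainA : ∃ (X : Act Fi22.Gen Fi22 14080 14) (f : Fi22 ⧸ HA ≃ Fin 14080),
    X.nets = Fi22x14080.par.nets ∧
    (∀ W : List Fi22.Gen, X.ev W = PresentedGroup.mk Rel ((W.map FreeGroup.of).prod)) ∧
    (∀ g, f (QuotientGroup.mk g) = X.φ g 0) :=
  cox_main2 Fi22.edges Fi22.extra 14080 14 Fi22x14080.par Fi22x14080.extraW hnodes hlettersA
    hidxA hextraA rfl Fi22x14080.hstat 9 Fi22x14080.tree Fi22x14080.stepsA Fi22x14080.parB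
    Fi22x14080.stepsB 63 Fi22x14080.hA rfl Fi22x14080.hB

theorem mainB : ∃ (X : Act Fi22.Gen Fi22 3510 12) (f : Fi22 ⧸ HB ≃ Fin 3510),
    X.nets = Fi22x3510.par.nets ∧
    (∀ W : List Fi22.Gen, X.ev W = PresentedGroup.mk Rel ((W.map FreeGroup.of).prod)) ∧
    (∀ g, f (QuotientGroup.mk g) = X.φ g 0) :=
  cox_main2 Fi22.edges Fi22.extra 3510 12 Fi22x3510.par Fi22x3510.extraW hnodes hlettersB
    hidxB hextraB rfl Fi22x3510.hstat 9 Fi22x3510.tree Fi22x3510.stepsA Fi22x3510.parB
    Fi22x3510.stepsB 37 Fi22x3510.hA rfl Fi22x3510.hB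

/-- the sub-diagram on `b, …, i`. -/
def esub : Fin 8 → Fi22.Gen := ![.b, .e, .c, .f, .g, .d, .h, .i]

theorem hsubNodes : ∀ x ∈ coxNodes F22K8.edges, esub x ∈ coxNodes Fi22.edges := by decide

theorem hsubLab : ∀ x ∈ coxNodes F22K8.edges, ∀ y ∈ coxNodes F22K8.edges,
    coxLabel F22K8.edges x y = coxLabel Fi22.edges (esub x) (esub y) := by decide

theorem hsubExtra : ∀ r ∈ F22K8.extra, PresentedGroup.mk Rel (FreeGroup.map esub r) = 1 := by
  intro r hr
  apply PresentedGroup.one_of_mem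
  right
  show _ ∈ Fi22.extra
  simp only [F22K8.extra, List.mem_cons, List.mem_nil_iff, or_false] at hr
  rcases hr with rfl | rfl
  · simp [Fi22.extra, esub, Fi22.a, Fi22.b, Fi22.c, Fi22.d, Fi22.e, Fi22.f, Fi22.g, Fi22.h,
      Fi22.i]
  · simp [Fi22.extra, esub, Fi22.a, Fi22.b, Fi22.c, Fi22.d, Fi22.e, Fi22.f, Fi22.g, Fi22.h,
      Fi22.i]

theorem card_le : Finite Fi22 ∧ Nat.card Fi22 ≤ 14080 * (3159 * 1451520) := by
  obtain ⟨X, f, -, -, -⟩ := mainA
  exact card_le_of_presHom Fi22.edges Fi22.extra F22K8.edges F22K8.extra esub hsubNodes hsubLab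
    hsubExtra _ F22K8.card_le.1 F22K8.card_le.2 Fi22x14080.par.subs (by decide) 14080 f

instance finite : Finite Fi22 := card_le.1

/-- the action on the 14080 cosets is faithful, and the order of the group. -/
theorem faithful : ∃ (X : Act Fi22.Gen Fi22 14080 14) (f : Fi22 ⧸ HA ≃ Fin 14080),
    X.nets = Fi22x14080.par.nets ∧
    (∀ W : List Fi22.Gen, X.ev W = PresentedGroup.mk Rel ((W.map FreeGroup.of).prod)) ∧
    (∀ g, f (QuotientGroup.mk g) = X.φ g 0) ∧ Function.Injective X.φ ∧
    Nat.card Fi22 = 64561751654400 := by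
  obtain ⟨X, f, hnets, hev, hf⟩ := mainA
  have h := X.injective_of_chain Fi22S.gens 9 Fi22S.levels (by rw [hnets]; exact Fi22S.hchain)
    64561751654400 (le_trans card_le.2 (by norm_num)) (by rw [Fi22S.hprod])
  exact ⟨X, f, hnets, hev, hf, h.1, h.2⟩

theorem card : Nat.card Fi22 = 64561751654400 := by
  obtain ⟨X, f, -, -, -, -, h⟩ := faithful
  exact h

theorem comm_of_closure {G : Type*} [Group G] (S : Set G) (t : G)
    (h : ∀ g ∈ S, g * t = t * g) : ∀ g ∈ Subgroup.closure S, g * t = t * g := by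
  intro g hg
  induction hg using Subgroup.closure_induction with
  | mem y hy => exact h y hy
  | one => simp
  | mul a b _ _ iha ihb => rw [mul_assoc, ihb, ← mul_assoc, iha, mul_assoc]
  | inv a _ iha =>
    have : a⁻¹ * t = a⁻¹ * (t * a) * a⁻¹ := by group
    rw [this, ← iha]; group

/-- a set of points invariant under the generating words is invariant under the subgroup. -/
theorem testBit_invariant {α : Type} {G : Type*} [Group G] {n k : ℕ} (X : Act α G n k) (S : ℕ)
    (subs : List (List α)) (hS : ∀ W ∈ subs, wapply X.nets W S = S) :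
    ∀ h ∈ Subgroup.closure {g | ∃ W ∈ subs, g = X.ev W}, ∀ c : Fin n,
      S.testBit c = S.testBit (X.φ h c) := by
  intro h hh
  induction hh using Subgroup.closure_induction with
  | mem y hy =>
    obtain ⟨W, hW, rfl⟩ := hy
    intro c
    have := X.testBit_wapply' W S c
    rw [hS W hW] at this
    exact this
  | one => intro c; simp
  | mul a b _ _ iha ihb =>
    intro c; rw [map_mul, Equiv.Perm.coe_mul, Function.comp_apply, ihb c, iha]
  | inv a _ iha =>
    intro c
    have := iha ((X.φ a)⁻¹ c)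
    rw [map_inv]; simpa using this.symm

theorem simple : IsSimpleGroup Fi22 := by
  obtain ⟨XA, fA, hnetsA, hevA, hfA, hinj, hcard⟩ := faithful
  obtain ⟨XB, fB, hnetsB, hevB, hfB⟩ := mainB
  have hs : ∀ x, XA.s x = PresentedGroup.of x := by
    intro x
    have := hevA [x]
    simp only [Act.ev, List.map_cons, List.map_nil, List.prod_cons, List.prod_nil,
      mul_one] at this
    exact this
  have hgen : Subgroup.closure (Set.range XA.s) = ⊤ := by
    have h1 : XA.s = PresentedGroup.of (rels := Rel) := funext hs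
    rw [h1]
    exact PresentedGroup.closure_range_of _
  have hconj : ∀ x, ∃ v, XA.s x = v * XA.ev Fi22S.Tw * v⁻¹ := fun x =>
    ⟨XA.ev (Fi22S.conjW x), XA.conj_of_relOK hinj _ _ x (by
      rw [hnetsA]; exact (List.all_eq_true.mp Fi22S.hconj) x (hlettersA x))⟩
  have hperf : commutator Fi22 = ⊤ :=
    XA.commutator_eq_top hgen _ hconj Fi22S.W0
      (XA.ev_eq_one_of_inj hinj _ (by rw [hnetsA]; exact Fi22S.hW0)) (by decide)
  have hnc := XA.normalClosure_eq_top hgen _ hconj
  have hcent : ∀ h ∈ HB, h * XA.ev Fi22S.Tw = XA.ev Fi22S.Tw * h := by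
    apply comm_of_closure
    rintro g ⟨W, hW, rfl⟩
    rw [← hevA W]
    exact XA.comm_of_relOK hinj W Fi22S.Tw (by
      rw [hnetsA]; exact (List.all_eq_true.mp Fi22S.hcomm) W hW)
  have hHB : HB = Subgroup.closure {g | ∃ W ∈ Fi22x3510.par.subs, g = XB.ev W} := by
    unfold HB
    congr 1
    ext g
    constructor
    · rintro ⟨W, hW, rfl⟩; exact ⟨W, hW, (hevB W).symm⟩
    · rintro ⟨W, hW, rfl⟩; exact ⟨W, hW, hevB W⟩
  have hHA : HA = Subgroup.closure {g | ∃ W ∈ Fi22x14080.par.subs, g = XA.ev W} := by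
    unfold HA
    congr 1
    ext g
    constructor
    · rintro ⟨W, hW, rfl⟩; exact ⟨W, hW, (hevA W).symm⟩
    · rintro ⟨W, hW, rfl⟩; exact ⟨W, hW, hevA W⟩
  have hHA' : HA = Subgroup.closure {g | ∃ W ∈ Fi22x14080.par.subs, g = XB.ev W} := by
    unfold HA
    congr 1
    ext g
    constructor
    · rintro ⟨W, hW, rfl⟩; exact ⟨W, hW, (hevB W).symm⟩
    · rintro ⟨W, hW, rfl⟩; exact ⟨W, hW, hevB W⟩
  have key : ∀ N : Subgroup Fi22, N.Normal → N ≠ ⊤ → N ≤ XB.φ.ker := by
    intro N hN hNt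
    exact XB.normal_le_ker HB fB hfB Fi22x3510.par.subs hHB Fi22x3510.orb1 Fi22x3510.orb694
      693 2816 (by norm_num) (by rw [hnetsB]; exact Fi22x3510.horb1)
      (by rw [hnetsB]; exact Fi22x3510.horb694) (by norm_num) (by norm_num) _ hcent hnc hperf
      N hNt
  have hSall := Fi22S.hS
  simp only [Bool.and_eq_true, List.all_eq_true, Bool.not_eq_true'] at hSall
  obtain ⟨hS1, hS2, hS3, hS4⟩ := hSall
  have hq : Fi22S.qpt < 3510 := by simpa [Nat.blt] using hS4
  have hker : XB.φ.ker = ⊥ := by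
    by_contra hne
    letI := XA.mulAction
    haveI : MulAction.IsPreprimitive Fi22 (Fin 14080) :=
      XA.isPreprimitive_of_rank3 HA fA hfA Fi22x14080.par.subs hHA Fi22x14080.orb1
        Fi22x14080.orb3160 3159 10920 (by norm_num) (by rw [hnetsA]; exact Fi22x14080.horb1)
        (by rw [hnetsA]; exact Fi22x14080.horb3160) (by norm_num) (by norm_num)
    have hfix : MulAction.fixedPoints XB.φ.ker (Fin 14080) ≠ Set.univ := by
      intro hu
      apply hne
      rw [Subgroup.eq_bot_iff_forall]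
      intro g hg
      apply hinj
      rw [map_one]
      ext c
      have h1 : c ∈ MulAction.fixedPoints XB.φ.ker (Fin 14080) := by rw [hu]; trivial
      have h2 : (⟨g, hg⟩ : XB.φ.ker) • c = c := h1 ⟨g, hg⟩
      have h3 : XA.φ g c = c := h2
      rw [h3]; rfl
    haveI : MulAction.IsPretransitive XB.φ.ker (Fin 14080) :=
      MulAction.IsQuasiPreprimitive.isPretransitive_of_normal hfix
    obtain ⟨g, hg⟩ := XB.exists_φ_zero_eq HB fB hfB ⟨Fi22S.qpt, hq⟩
    obtain ⟨κ, hκ⟩ := MulAction.exists_smul_eq XB.φ.ker (0 : Fin 14080) (XA.φ g 0)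
    have hκ' : XA.φ (κ : Fi22) 0 = XA.φ g 0 := hκ
    have h1 : (κ : Fi22)⁻¹ * g ∈ HA := by
      rw [XA.mem_iff_φ_zero HA fA hfA, map_mul, Equiv.Perm.coe_mul, Function.comp_apply, ← hκ',
        map_inv]
      simp
    have h2 : XB.φ ((κ : Fi22)⁻¹ * g) 0 = XB.φ g 0 := by
      rw [map_mul, map_inv, MonoidHom.mem_ker.mp κ.2, inv_one, one_mul]
    have h3 := testBit_invariant XB Fi22S.Smask Fi22x14080.par.subs (by
      intro W hW
      have := hS1 W hW
      rw [hnetsB]
      exact Nat.eq_of_beq_eq_true this) ((κ : Fi22)⁻¹ * g) (by rw [← hHA']; exact h1) 0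
    rw [h2, hg] at h3
    have h4 : Fi22S.Smask.testBit ((0 : Fin 3510) : ℕ) = true := hS2
    rw [h4] at h3
    have h5 : Fi22S.Smask.testBit Fi22S.qpt = false := hS3
    rw [h5] at h3
    exact Bool.noConfusion h3
  have hnt : Nontrivial Fi22 := by
    rw [← Finite.one_lt_card_iff_nontrivial, hcard]; norm_num
  refine { toNontrivial := hnt, eq_bot_or_eq_top_of_normal := ?_ }
  intro N hN
  by_cases hNt : N = ⊤
  · exact Or.inr hNt
  · left
    have h1 := key N hN hNt
    rw [hker] at h1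
    exact le_bot_iff.mp h1

end Cfsg.Agent.Lib.Helper13.Fi22O
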