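import Cfsg.Agent.Lib.Helper13.Fi23O
import Cfsg.Agent.Lib.Helper13.Fi22O
import Cfsg.Agent.Lib.Helper13.CosetCover
import Cfsg.Prelude.Def_SporadicB
set_option autoImplicit false
set_option maxRecDepth 100000

/-!
In the presented `Fi₂₃`, the subgroup generated by `a, …, i` is a non-split double cover of the
presented `Fi₂₂`.
-/

open Cfsg.Agent.Lib.Helper13.CE Cfsg.Spor

namespace Cfsg.Agent.Lib.Helper13.Fi23C

/-- `Fi₂₂` is perfect. -/
theorem fi22_perfect : commutator Fi22 = ⊤ := by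
  obtain ⟨XA, fA, hnetsA, hevA, hfA, hinj, hcard⟩ := Fi22O.faithful
  have hs : ∀ x, XA.s x = PresentedGroup.of x := by
    intro x
    have := hevA [x]
    simp only [Act.ev, List.map_cons, List.map_nil, List.prod_cons, List.prod_nil,
      mul_one] at this
    exact this
  have hgen : Subgroup.closure (Set.range XA.s) = ⊤ := by
    have h1 : XA.s = PresentedGroup.of (rels := Fi22O.Rel) := funext hs
    rw [h1]
    exact PresentedGroup.closure_range_of _
  have hconj : ∀ x, ∃ v, XA.s x = v * XA.ev Fi22S.Tw * v⁻¹ := fun x =>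
    ⟨XA.ev (Fi22S.conjW x), XA.conj_of_relOK hinj _ _ x (by
      rw [hnetsA]; exact (List.all_eq_true.mp Fi22S.hconj) x (Fi22O.hlettersA x))⟩
  exact XA.commutator_eq_top hgen _ hconj Fi22S.W0
    (XA.ev_eq_one_of_inj hinj _ (by rw [hnetsA]; exact Fi22S.hW0)) (by decide)

theorem fi22_center : Subgroup.center Fi22 = ⊥ :=
  haveI := Fi22O.simple
  center_eq_bot_of_simple fi22_perfect

/-- the inclusion of the generators. -/
def inc : Fi22.Gen → Fi23.Gen
  | .a => .a
  | .b => .b
  | .c => .c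
  | .d => .d
  | .e => .e
  | .f => .f
  | .g => .g
  | .h => .h
  | .i => .i

theorem of_mem (x : Fi22.Gen) : (PresentedGroup.of (inc x) : Fi23) ∈ Fi23O.Hs := by
  apply Subgroup.subset_closure
  refine ⟨[inc x], ?_, ?_⟩
  · cases x <;> decide
  · simp only [List.map_cons, List.map_nil, List.prod_cons, List.prod_nil, mul_one]
    rfl

/-- the generators of the subgroup. -/
def gH (x : Fi22.Gen) : Fi23O.Hs := ⟨PresentedGroup.of (inc x), of_mem x⟩

theorem gH_gen : Subgroup.closure (Set.range gH) = ⊤ := by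
  have h : Subgroup.closure (((↑) : Fi23O.Hs → Fi23) ⁻¹' {g | ∃ W ∈ Fi23x31671.par.subs,
      g = PresentedGroup.mk Fi23O.Rel ((W.map FreeGroup.of).prod)}) = ⊤ :=
    Subgroup.closure_closure_coe_preimage
  rw [eq_top_iff, ← h]
  apply Subgroup.closure_mono
  rintro ⟨g, hg⟩ ⟨W, hW, hgW⟩
  have hW' : W ∈ Fi23x31671.subsW := hW
  simp only [Fi23x31671.subsW, List.mem_cons, List.mem_nil_iff, or_false] at hW'
  have key : ∀ x : Fi22.Gen, W = [inc x] → (⟨g, hg⟩ : Fi23O.Hs) ∈ Set.range gH := by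
    intro x hx
    refine ⟨x, Subtype.ext ?_⟩
    show PresentedGroup.of (inc x) = g
    have hgW' : g = PresentedGroup.mk Fi23O.Rel ((W.map FreeGroup.of).prod) := hgW
    rw [hgW', hx]
    simp only [List.map_cons, List.map_nil, List.prod_cons, List.prod_nil, mul_one]
    rfl
  rcases hW' with rfl | rfl | rfl | rfl | rfl | rfl | rfl | rfl | rfl
  · exact key .a rfl
  · exact key .b rfl
  · exact key .c rfl
  · exact key .d rfl
  · exact key .e rfl
  · exact key .f rfl
  · exact key .g rfl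
  · exact key .h rfl
  · exact key .i rfl

theorem coe_lift (r : FreeGroup Fi22.Gen) :
    ((FreeGroup.lift gH r : Fi23O.Hs) : Fi23) =
      PresentedGroup.mk Fi23O.Rel (FreeGroup.map inc r) := by
  have h : (Subgroup.subtype Fi23O.Hs).comp (FreeGroup.lift gH) =
      (PresentedGroup.mk Fi23O.Rel).comp (FreeGroup.map inc) := by
    apply FreeGroup.ext_hom
    intro x
    rw [MonoidHom.comp_apply, MonoidHom.comp_apply, FreeGroup.lift_apply_of, FreeGroup.map.of]
    rfl
  exact DFunLike.congr_fun h r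

theorem cox_rel (x y : Fi23.Gen) : PresentedGroup.mk Fi23O.Rel
    ((FreeGroup.of x * FreeGroup.of y) ^ coxLabel Fi23.edges x y) = 1 :=
  PresentedGroup.one_of_mem (Or.inl ⟨x, Fi23O.hnodes x, y, Fi23O.hnodes y, rfl⟩)

theorem hlab : ∀ x y : Fi22.Gen,
    coxLabel Fi22.edges x y = coxLabel Fi23.edges (inc x) (inc y) := by
  intro x y
  cases x <;> cases y <;> decide

theorem lift_cox (r : FreeGroup Fi22.Gen) (hr : r ∈ coxRelators Fi22.edges) :
    FreeGroup.lift gH r = 1 := by
  obtain ⟨x, _, y, _, rfl⟩ := hr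
  apply Subtype.ext
  rw [coe_lift, map_pow, map_mul, FreeGroup.map.of, FreeGroup.map.of, hlab]
  exact cox_rel _ _

/-- the spider relator. -/
def sp : FreeGroup Fi22.Gen :=
  (Fi22.d * Fi22.c * Fi22.b * Fi22.d * Fi22.e * Fi22.f * Fi22.d * Fi22.h * Fi22.i) ^ 10

/-- the first `E₇` relator. -/
def z1 : FreeGroup Fi22.Gen :=
  (Fi22.a * Fi22.b * Fi22.c * Fi22.d * Fi22.e * Fi22.f * Fi22.h) ^ 9

/-- the second `E₇` relator. -/
def z2 : FreeGroup Fi22.Gen :=
  (Fi22.b * Fi22.c * Fi22.d * Fi22.e * Fi22.f * Fi22.g * Fi22.h) ^ 9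

theorem lift_sp : FreeGroup.lift gH sp = 1 := by
  apply Subtype.ext
  rw [coe_lift]
  apply PresentedGroup.one_of_mem
  right
  show _ ∈ Fi23.extra
  simp [sp, inc, Fi23.extra, Fi22.a, Fi22.b, Fi22.c, Fi22.d, Fi22.e, Fi22.f, Fi22.g, Fi22.h,
    Fi22.i, Fi23.a, Fi23.b, Fi23.c, Fi23.d, Fi23.e, Fi23.f, Fi23.g, Fi23.j, Fi23.h, Fi23.i]

theorem lift_z1 : FreeGroup.lift gH z1 = 1 := by
  apply Subtype.ext
  rw [coe_lift]
  apply PresentedGroup.one_of_mem
  right
  show _ ∈ Fi23.extra
  simp [z1, inc, Fi23.extra, Fi22.a, Fi22.b, Fi22.c, Fi22.d, Fi22.e, Fi22.f, Fi22.g, Fi22.h,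
    Fi22.i, Fi23.a, Fi23.b, Fi23.c, Fi23.d, Fi23.e, Fi23.f, Fi23.g, Fi23.j, Fi23.h, Fi23.i]

/-- the central involution `(bcdefgh)^9`. -/
def tH : Fi23O.Hs := FreeGroup.lift gH z2

theorem coe_tH : (tH : Fi23) =
    PresentedGroup.mk Fi23O.Rel ((Fi23S.Tw.map FreeGroup.of).prod) := by
  unfold tH
  rw [coe_lift]
  congr 1

theorem tH_facts : (∀ h : Fi23O.Hs, h * tH = tH * h) ∧ tH * tH = 1 ∧ tH ≠ 1 ∧
    Nat.card Fi23O.Hs = 129123503308800 := by
  obtain ⟨X, f, hnets, hev, hf, hinj, hgen, hconj, hcent, hJ⟩ := Fi23O.struct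
  have ht : (tH : Fi23) = X.ev Fi23S.Tw := by rw [coe_tH, hev]
  refine ⟨?_, ?_, ?_, ?_⟩
  · intro h
    apply Subtype.ext
    show (h : Fi23) * (tH : Fi23) = (tH : Fi23) * h
    rw [ht]
    exact hcent h h.2
  · apply Subtype.ext
    show (tH : Fi23) * (tH : Fi23) = 1
    rw [ht]
    have h1 : X.ev Fi23S.Tw = (X.ev Fi23S.Vj)⁻¹ * X.s Fi23.Gen.j * X.ev Fi23S.Vj := by
      rw [hJ]; group
    rw [h1]
    calc (X.ev Fi23S.Vj)⁻¹ * X.s Fi23.Gen.j * X.ev Fi23S.Vj *
          ((X.ev Fi23S.Vj)⁻¹ * X.s Fi23.Gen.j * X.ev Fi23S.Vj)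
        = (X.ev Fi23S.Vj)⁻¹ * (X.s Fi23.Gen.j * X.s Fi23.Gen.j) * X.ev Fi23S.Vj := by group
      _ = 1 := by rw [X.hs]; group
  · intro h1
    have h2 : X.ev Fi23S.Tw = 1 := by rw [← ht, h1]; rfl
    have h3 : ∀ x, X.s x = 1 := by
      intro x
      obtain ⟨v, hv⟩ := hconj x
      rw [hv, h2]; group
    have h4 : (⊤ : Subgroup Fi23) = ⊥ := by
      rw [← hgen, Subgroup.closure_eq_bot_iff]
      rintro _ ⟨x, rfl⟩
      exact h3 x
    have h5 := Fi23O.card
    have h6 : Nat.card Fi23 = 1 := by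
      rw [← Subgroup.card_top (G := Fi23), h4, Subgroup.card_bot]
    omega
  · have h1 := card_eq_of_index Fi23O.Hs 31671 f
    rw [Fi23O.card] at h1
    omega

/-- the subgroup generated by the central involution. -/
def T : Subgroup Fi23O.Hs := Subgroup.zpowers tH

theorem T_le_center : T ≤ Subgroup.center Fi23O.Hs := by
  unfold T
  rw [Subgroup.zpowers_le, Subgroup.mem_center_iff]
  exact tH_facts.1

instance T_normal : T.Normal := ⟨fun n hn g => by
  have := Subgroup.mem_center_iff.mp (T_le_center hn) g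
  rw [this, mul_inv_cancel_right]
  exact hn⟩

theorem card_T : Nat.card T = 2 := by
  unfold T
  rw [Nat.card_zpowers]
  exact orderOf_eq_prime (p := 2) (by rw [pow_two]; exact tH_facts.2.1) tH_facts.2.2.1

/-- the homomorphism from the presented `Fi₂₂` onto the quotient. -/
def psi : Fi22 →* Fi23O.Hs ⧸ T :=
  PresentedGroup.toGroup (f := fun x => (QuotientGroup.mk (gH x) : Fi23O.Hs ⧸ T)) (by
    intro r hr
    have h0 : FreeGroup.lift (fun x => (QuotientGroup.mk (gH x) : Fi23O.Hs ⧸ T)) r =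
        QuotientGroup.mk (FreeGroup.lift gH r) := by
      have h : FreeGroup.lift (fun x => (QuotientGroup.mk (gH x) : Fi23O.Hs ⧸ T)) =
          (QuotientGroup.mk' T).comp (FreeGroup.lift gH) := by
        apply FreeGroup.ext_hom
        intro x
        rw [MonoidHom.comp_apply, FreeGroup.lift_apply_of, FreeGroup.lift_apply_of]
        rfl
      rw [h]; rfl
    rw [h0]
    rcases hr with hr | hr
    · rw [lift_cox r hr]; rfl
    · have hr' : r ∈ Fi22.extra := hr
      simp only [Fi22.extra, List.mem_cons, List.mem_nil_iff, or_false] at hr'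
      rcases hr' with rfl | rfl | rfl
      · have := lift_sp
        unfold sp at this
        rw [this]; rfl
      · have := lift_z1
        unfold z1 at this
        rw [this]; rfl
      · show (QuotientGroup.mk tH : Fi23O.Hs ⧸ T) = 1
        exact (QuotientGroup.eq_one_iff _).mpr (Subgroup.mem_zpowers tH))

theorem psi_of (x : Fi22.Gen) : psi (PresentedGroup.of x) = QuotientGroup.mk (gH x) :=
  PresentedGroup.toGroup.of _

theorem psi_surj : Function.Surjective psi := by
  rw [← MonoidHom.range_eq_top]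
  have h1 : (psi.range).comap (QuotientGroup.mk' T) = ⊤ := by
    rw [eq_top_iff, ← gH_gen, Subgroup.closure_le]
    rintro _ ⟨x, rfl⟩
    show QuotientGroup.mk' T (gH x) ∈ psi.range
    exact ⟨PresentedGroup.of x, psi_of x⟩
  rw [eq_top_iff]
  intro q _
  obtain ⟨h, rfl⟩ := QuotientGroup.mk_surjective q
  have h2 : h ∈ (psi.range).comap (QuotientGroup.mk' T) := by rw [h1]; trivial
  exact h2

theorem card_quot : Nat.card (Fi23O.Hs ⧸ T) = 64561751654400 := by
  have h1 := Subgroup.card_eq_card_quotient_mul_card_subgroup T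
  rw [tH_facts.2.2.2, card_T] at h1
  omega

/-- the quotient is the presented `Fi₂₂`. -/
noncomputable def equiv : Fi23O.Hs ⧸ T ≃* Fi22 :=
  (MulEquiv.ofBijective psi (Function.Surjective.bijective_of_nat_card_le psi_surj
    (by rw [card_quot, Fi22O.card]))).symm

theorem center_eq : Subgroup.center Fi23O.Hs = T :=
  center_eq_of_quotient T T_le_center equiv fi22_center

theorem gH_sq (x : Fi22.Gen) : gH x * gH x = 1 := by
  apply Subtype.ext
  have h := cox_rel (inc x) (inc x)
  have h1 : coxLabel Fi23.edges (inc x) (inc x) = 1 := by unfold coxLabel; rw [if_pos rfl]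
  rw [h1, pow_one, map_mul] at h
  exact h

theorem braid (y x : Fi22.Gen) (h : coxLabel Fi23.edges (inc y) (inc x) = 3) :
    (gH y * gH x) ^ 3 = 1 := by
  apply Subtype.ext
  have h1 := cox_rel (inc y) (inc x)
  rw [h, map_pow, map_mul] at h1
  exact h1

theorem hconjH : ∀ x, ∃ v : Fi23O.Hs, gH x = v * gH .a * v⁻¹ := by
  have step : ∀ y x, coxLabel Fi23.edges (inc y) (inc x) = 3 →
      (∃ v, gH y = v * gH .a * v⁻¹) → ∃ v, gH x = v * gH .a * v⁻¹ := by
    intro y x h ⟨v, hv⟩
    refine ⟨gH y * gH x * v, ?_⟩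
    have h1 := conj_of_braid (gH y) (gH x) (gH_sq y) (gH_sq x) (braid y x h)
    calc gH x = gH y * gH x * gH y * (gH y * gH x)⁻¹ := h1
      _ = gH y * gH x * (v * gH .a * v⁻¹) * (gH y * gH x)⁻¹ := by rw [← hv]
      _ = (gH y * gH x * v) * gH .a * (gH y * gH x * v)⁻¹ := by group
  have ca : ∃ v, gH .a = v * gH .a * v⁻¹ := ⟨1, by group⟩
  have cb := step .a .b (by decide) ca
  have cc := step .b .c (by decide) cb
  have cd := step .c .d (by decide) cc
  have ce := step .d .e (by decide) cd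
  have cf := step .e .f (by decide) ce
  have cg := step .f .g (by decide) cf
  have ch := step .d .h (by decide) cd
  have ci := step .h .i (by decide) ch
  intro x
  cases x <;> assumption

/-- a relator of odd length. -/
def W0 : List Fi22.Gen := (List.replicate 9 [Fi22.Gen.a, .b, .c, .d, .e, .f, .h]).flatten

theorem hW0 : (W0.map gH).prod = 1 := by
  have h1 : (W0.map gH).prod = FreeGroup.lift gH ((W0.map FreeGroup.of).prod) := by
    rw [map_list_prod, List.map_map]
    congr 1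
  have h2 : ((W0.map FreeGroup.of).prod : FreeGroup Fi22.Gen) = z1 := by
    simp [W0, z1, Fi22.a, Fi22.b, Fi22.c, Fi22.d, Fi22.e, Fi22.f, Fi22.h, pow_succ, mul_assoc]
  rw [h1, h2, lift_z1]

theorem perfect : commutator Fi23O.Hs = ⊤ :=
  commutator_eq_top_of_conj gH gH_sq gH_gen (gH .a) hconjH W0 hW0 (by decide)

/-- the subgroup generated by `a, …, i` is a non-split double cover of `Fi₂₂`. -/
theorem cover : Cfsg.IsNonsplitDoubleCover Fi23O.Hs Fi22 := by
  refine ⟨?_, ?_, ?_⟩
  · rw [center_eq]; exact card_T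
  · exact ⟨(QuotientGroup.quotientMulEquivOfEq center_eq).trans equiv⟩
  · intro L
    apply no_complement_of_perfect _ le_rfl perfect
    rw [center_eq]
    intro h
    have h1 := card_T
    rw [h, Subgroup.card_bot] at h1
    omega

end Cfsg.Agent.Lib.Helper13.Fi23C
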