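import Cfsg.Agent.Lib.Helper13.Fi23x31671Data
set_option autoImplicit false
set_option maxRecDepth 100000

open Cfsg.Agent.Lib.Helper13.CE

namespace Cfsg.Agent.Lib.Helper13.Fi23x31671

theorem hB : checkB parB stepsB = true := by decide +kernel
theorem hstat : staticOK par 31671 15 = true := by decide +kernel
theorem horb1 : orbOK par.nets 31671 par.subs orb1 1 3510 = true := by decide +kernel
theorem horb3511 : orbOK par.nets 31671 par.subs orb3511 3511 28160 = true := by decide +kernel

end Cfsg.Agent.Lib.Helper13.Fi23x31671
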