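import Cfsg.Agent.Lib.Helper13.Fi23x31671A
import Cfsg.Agent.Lib.Helper13.Fi23x31671B
import Cfsg.Agent.Lib.Helper13.F23K9P
import Cfsg.Agent.Lib.Helper13.Fi23SChk
set_option autoImplicit false
set_option maxRecDepth 100000

/-!
The presented Fischer group `Fi₂₃`: its order, a faithful rank three action on 31671 points, and
simplicity.
-/

open Cfsg.Agent.Lib.Helper13.CE Cfsg.Spor Cfsg.Agent.Lib.Helper13.Fi23x31671

namespace Cfsg.Agent.Lib.Helper13.Fi23O

theorem hnodes : ∀ x : Fi23.Gen, x ∈ coxNodes Fi23.edges := by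
  intro x; cases x <;> decide

theorem hletters : ∀ x : Fi23.Gen, x ∈ par.letters := by
  intro x; cases x <;> decide

theorem hidx : Function.Injective par.idx := by
  intro x y h
  cases x <;> cases y <;> first | rfl | exact absurd h (by decide)

theorem hextra : List.Forall₂ (fun r W => ∀ (K : Type) [Group K] (s : Fi23.Gen → K),
    (∀ x, s x * s x = 1) → FreeGroup.lift s r = (W.map s).prod) Fi23.extra extraW := by
  refine List.Forall₂.cons ?_ (List.Forall₂.cons ?_ (List.Forall₂.nil))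
  all_goals
    intro K _ s hs
    simp only [Fi23.a, Fi23.b, Fi23.c, Fi23.d, Fi23.e, Fi23.f, Fi23.g, Fi23.j, Fi23.h, Fi23.i,
      map_mul, FreeGroup.lift_apply_of, List.map_cons, List.map_nil, List.prod_cons,
      List.prod_nil, pow_succ, pow_zero, one_mul, mul_one, mul_assoc]

/-- the relators. -/
abbrev Rel : Set (FreeGroup Fi23.Gen) := coxRelators Fi23.edges ∪ {r | r ∈ Fi23.extra}

/-- the subgroup generated by `a, …, i`. -/
def Hs : Subgroup Fi23 :=
  Subgroup.closure {g | ∃ W ∈ par.subs, g = PresentedGroup.mk Rel ((W.map FreeGroup.of).prod)}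

theorem main : ∃ (X : Act Fi23.Gen Fi23 31671 15) (f : Fi23 ⧸ Hs ≃ Fin 31671),
    X.nets = par.nets ∧
    (∀ W : List Fi23.Gen, X.ev W = PresentedGroup.mk Rel ((W.map FreeGroup.of).prod)) ∧
    (∀ g, f (QuotientGroup.mk g) = X.φ g 0) :=
  cox_main2 Fi23.edges Fi23.extra 31671 15 par extraW hnodes hletters hidx hextra rfl hstat 10
    tree stepsA parB stepsB 77 hA rfl hB

/-- the sub-diagram on `a, …, i`. -/
def esub : Fin 9 → Fi23.Gen := ![.a, .d, .b, .e, .f, .c, .h, .i, .g]

theorem hsubNodes : ∀ x ∈ coxNodes F23K9.edges, esub x ∈ coxNodes Fi23.edges := by decide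

theorem hsubLab : ∀ x ∈ coxNodes F23K9.edges, ∀ y ∈ coxNodes F23K9.edges,
    coxLabel F23K9.edges x y = coxLabel Fi23.edges (esub x) (esub y) := by decide

theorem hsubExtra : ∀ r ∈ F23K9.extra, PresentedGroup.mk Rel (FreeGroup.map esub r) = 1 := by
  intro r hr
  apply PresentedGroup.one_of_mem
  right
  show _ ∈ Fi23.extra
  simp only [F23K9.extra, List.mem_cons, List.mem_nil_iff, or_false] at hr
  rcases hr with rfl | rfl
  · simp [Fi23.extra, esub, Fi23.a, Fi23.b, Fi23.c, Fi23.d, Fi23.e, Fi23.f, Fi23.g, Fi23.j,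
      Fi23.h, Fi23.i]
  · simp [Fi23.extra, esub, Fi23.a, Fi23.b, Fi23.c, Fi23.d, Fi23.e, Fi23.f, Fi23.g, Fi23.j,
      Fi23.h, Fi23.i]

theorem card_le : Finite Fi23 ∧ Nat.card Fi23 ≤ 31671 * (28160 * (3159 * 1451520)) := by
  obtain ⟨X, f, -, -, -⟩ := main
  exact card_le_of_presHom Fi23.edges Fi23.extra F23K9.edges F23K9.extra esub hsubNodes hsubLab
    hsubExtra _ F23K9.card_le.1 F23K9.card_le.2 par.subs (by decide) 31671 f

instance finite : Finite Fi23 := card_le.1

/-- the action on the 31671 cosets is faithful, and the order of the group. -/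
theorem faithful : ∃ (X : Act Fi23.Gen Fi23 31671 15) (f : Fi23 ⧸ Hs ≃ Fin 31671),
    X.nets = par.nets ∧
    (∀ W : List Fi23.Gen, X.ev W = PresentedGroup.mk Rel ((W.map FreeGroup.of).prod)) ∧
    (∀ g, f (QuotientGroup.mk g) = X.φ g 0) ∧ Function.Injective X.φ ∧
    Nat.card Fi23 = 4089470473293004800 := by
  obtain ⟨X, f, hnets, hev, hf⟩ := main
  have h := X.injective_of_chain Fi23S.gens 10 Fi23S.levels (by rw [hnets]; exact Fi23S.hchain)
    4089470473293004800 (le_trans card_le.2 (by norm_num)) (by rw [Fi23S.hprod])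
  exact ⟨X, f, hnets, hev, hf, h.1, h.2⟩

theorem card : Nat.card Fi23 = 4089470473293004800 := by
  obtain ⟨X, f, -, -, -, -, h⟩ := faithful
  exact h

theorem comm_of_closure {G : Type*} [Group G] (S : Set G) (t : G)
    (h : ∀ g ∈ S, g * t = t * g) : ∀ g ∈ Subgroup.closure S, g * t = t * g := by
  intro g hg
  induction hg using Subgroup.closure_induction with
  | mem y hy => exact h y hy
  | one => simp
  | mul a b _ _ iha ihb => rw [mul_assoc, ihb, ← mul_assoc, iha, mul_assoc]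
  | inv a _ iha =>
    have : a⁻¹ * t = a⁻¹ * (t * a) * a⁻¹ := by group
    rw [this, ← iha]; group

/-- the structure used for simplicity: a faithful action on the cosets of `Hs`, a central
involution `t₀ = (bcdefgh)^9` of `Hs`, conjugate to every generator. -/
theorem struct : ∃ (X : Act Fi23.Gen Fi23 31671 15) (f : Fi23 ⧸ Hs ≃ Fin 31671),
    X.nets = par.nets ∧
    (∀ W : List Fi23.Gen, X.ev W = PresentedGroup.mk Rel ((W.map FreeGroup.of).prod)) ∧
    (∀ g, f (QuotientGroup.mk g) = X.φ g 0) ∧ Function.Injective X.φ ∧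
    Subgroup.closure (Set.range X.s) = ⊤ ∧
    (∀ x, ∃ v, X.s x = v * X.ev Fi23S.Tw * v⁻¹) ∧
    (∀ h ∈ Hs, h * X.ev Fi23S.Tw = X.ev Fi23S.Tw * h) ∧
    X.s Fi23.Gen.j = X.ev Fi23S.Vj * X.ev Fi23S.Tw * (X.ev Fi23S.Vj)⁻¹ := by
  obtain ⟨X, f, hnets, hev, hf, hinj, -⟩ := faithful
  have hs : ∀ x, X.s x = PresentedGroup.of x := by
    intro x
    have := hev [x]
    simp only [Act.ev, List.map_cons, List.map_nil, List.prod_cons, List.prod_nil,
      mul_one] at this
    exact this
  have hgen : Subgroup.closure (Set.range X.s) = ⊤ := by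
    have h1 : X.s = PresentedGroup.of (rels := Rel) := funext hs
    rw [h1]
    exact PresentedGroup.closure_range_of _
  have hJ : X.s Fi23.Gen.j = X.ev Fi23S.Vj * X.ev Fi23S.Tw * (X.ev Fi23S.Vj)⁻¹ :=
    X.conj_of_relOK hinj _ _ _ (by rw [hnets]; exact Fi23S.hconjJ)
  have step : ∀ y x : Fi23.Gen, (y, x) ∈ Fi23S.treeE →
      (∃ v, X.s y = v * X.ev Fi23S.Tw * v⁻¹) → ∃ v, X.s x = v * X.ev Fi23S.Tw * v⁻¹ := by
    intro y x hyx ⟨v, hv⟩
    have h0 := (List.all_eq_true.mp Fi23S.hedges) (y, x) hyx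
    have h1 := X.conj_of_relOK hinj [y, x] [y] x (by rw [hnets]; exact h0)
    refine ⟨X.ev [y, x] * v, ?_⟩
    rw [h1]
    simp only [Act.ev_cons, Act.ev_nil, mul_one]
    rw [hv]; group
  have cj : ∃ v, X.s Fi23.Gen.j = v * X.ev Fi23S.Tw * v⁻¹ := ⟨_, hJ⟩
  have cg := step .j .g (by decide) cj
  have cf := step .g .f (by decide) cg
  have ce := step .f .e (by decide) cf
  have cd := step .e .d (by decide) ce
  have cc := step .d .c (by decide) cd
  have cb := step .c .b (by decide) cc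
  have ca := step .b .a (by decide) cb
  have ch := step .d .h (by decide) cd
  have ci := step .h .i (by decide) ch
  have hconj : ∀ x, ∃ v, X.s x = v * X.ev Fi23S.Tw * v⁻¹ := by
    intro x; cases x <;> assumption
  have hcent : ∀ h ∈ Hs, h * X.ev Fi23S.Tw = X.ev Fi23S.Tw * h := by
    apply comm_of_closure
    rintro g ⟨W, hW, rfl⟩
    rw [← hev W]
    have hW' : W ∈ subsW := hW
    simp only [subsW, List.mem_cons, List.mem_nil_iff, or_false] at hW'
    rcases hW' with rfl | rfl | rfl | rfl | rfl | rfl | rfl | rfl | rfl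
    · exact X.comm_of_relOK hinj _ Fi23S.Tw (by rw [hnets]; exact Fi23S.hcomm_a)
    · exact X.comm_of_relOK hinj _ Fi23S.Tw (by rw [hnets]; exact Fi23S.hcomm_b)
    · exact X.comm_of_relOK hinj _ Fi23S.Tw (by rw [hnets]; exact Fi23S.hcomm_c)
    · exact X.comm_of_relOK hinj _ Fi23S.Tw (by rw [hnets]; exact Fi23S.hcomm_d)
    · exact X.comm_of_relOK hinj _ Fi23S.Tw (by rw [hnets]; exact Fi23S.hcomm_e)
    · exact X.comm_of_relOK hinj _ Fi23S.Tw (by rw [hnets]; exact Fi23S.hcomm_f)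
    · exact X.comm_of_relOK hinj _ Fi23S.Tw (by rw [hnets]; exact Fi23S.hcomm_g)
    · exact X.comm_of_relOK hinj _ Fi23S.Tw (by rw [hnets]; exact Fi23S.hcomm_h)
    · exact X.comm_of_relOK hinj _ Fi23S.Tw (by rw [hnets]; exact Fi23S.hcomm_i)
  exact ⟨X, f, hnets, hev, hf, hinj, hgen, hconj, hcent, hJ⟩

theorem simple : IsSimpleGroup Fi23 := by
  obtain ⟨X, f, hnets, hev, hf, hinj, hgen, hconj, hcent, -⟩ := struct
  have hH : Hs = Subgroup.closure {g | ∃ W ∈ par.subs, g = X.ev W} := by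
    unfold Hs
    congr 1
    ext g
    constructor
    · rintro ⟨W, hW, rfl⟩; exact ⟨W, hW, (hev W).symm⟩
    · rintro ⟨W, hW, rfl⟩; exact ⟨W, hW, hev W⟩
  exact X.isSimpleGroup_of_rank3 Hs f hf hinj par.subs hH orb1 orb3511 3510 28160 (by norm_num)
    (by rw [hnets]; exact horb1) (by rw [hnets]; exact horb3511) (by norm_num) (by norm_num)
    (X.ev Fi23S.Tw) hcent (X.normalClosure_eq_top hgen _ hconj)
    (X.commutator_eq_top hgen _ hconj Fi23S.W0
      (X.ev_eq_one_of_inj hinj _ (by rw [hnets]; exact Fi23S.hW0)) (by decide))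

end Cfsg.Agent.Lib.Helper13.Fi23O
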