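import Cfsg.Agent.Lib.Helper13.Fi23SData
set_option autoImplicit false
set_option maxRecDepth 100000

open Cfsg.Agent.Lib.Helper13.CE

namespace Cfsg.Agent.Lib.Helper13.Fi23S

theorem hchain : chainOK Fi23x31671.nets 31671 gens 10 levels = true := by decide +kernel
theorem hprod : (levels.map (fun l => l.2.2)).prod = 4089470473293004800 := by decide +kernel
theorem hW0 : relOK Fi23x31671.nets 15 W0 = true := by decide +kernel
theorem hedges : treeE.all (fun p => relOK Fi23x31671.nets 15 ([p.1, p.2] ++ [p.1] ++ [p.1, p.2].reverse ++ [p.2])) = true := by decide +kernel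

end Cfsg.Agent.Lib.Helper13.Fi23S
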