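import Cfsg.Agent.Lib.Helper13.Fi23SData
set_option autoImplicit false
set_option maxRecDepth 100000

open Cfsg.Agent.Lib.Helper13.CE

namespace Cfsg.Agent.Lib.Helper13.Fi23S

theorem hcomm_e : relOK Fi23x31671.nets 15 ([.e] ++ Tw ++ [.e].reverse ++ Tw.reverse) = true := by decide +kernel
theorem hcomm_f : relOK Fi23x31671.nets 15 ([.f] ++ Tw ++ [.f].reverse ++ Tw.reverse) = true := by decide +kernel

end Cfsg.Agent.Lib.Helper13.Fi23S
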