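import Cfsg.Agent.Lib.Helper13.Fi23x31671Data
import Cfsg.Agent.Lib.Helper13.CosetCoxChain
set_option autoImplicit false
set_option maxRecDepth 100000

open Cfsg.Agent.Lib.Helper13.CE

namespace Cfsg.Agent.Lib.Helper13.Fi23S

def gens : List Cfsg.Spor.Fi23.Gen := [.a, .i, .b, .h, .c, .d, .e, .f, .g, .j]
def levels : List (ℕ × List ℕ × ℕ) := [(0, [9, 8, 7, 6, 5, 3, 4, 5, 6, 7, 8, 9, 1, 2, 3, 4, 5, 6, 7, 8, 9, 0, 2, 3, 4, 5, 6, 7, 8, 9, 1, 2, 3, 4, 5, 6, 7, 8, 9, 0, 1, 2, 3, 4, 5, 6, 7, 8, 9, 1, 2, 3, 4, 5, 2, 4, 0, 2], 31671),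
  (3511, [8, 7, 6, 5, 3, 4, 5, 6, 7, 8, 1, 2, 3, 4, 5, 6, 7, 8, 0, 2, 3, 4, 5, 6, 7, 8, 1, 2, 3, 4, 5, 6, 7, 8, 0, 1, 2, 3, 4, 5, 6, 7, 8, 0, 1, 2, 3, 4, 5, 6, 7, 1, 2, 4, 0, 2], 28160),
  (1827, [7, 6, 5, 3, 4, 5, 6, 7, 1, 2, 3, 4, 5, 6, 7, 0, 2, 3, 4, 5, 6, 7, 1, 2, 3, 4, 5, 6, 7, 0, 1, 2, 3, 4, 5, 6, 7, 0, 1, 2, 3, 4, 5], 3159),
  (1532, [6, 5, 3, 4, 5, 6, 1, 2, 3, 4, 5, 6, 0, 2, 3, 4, 5, 6, 1, 2, 3, 4, 5, 6, 0, 1, 2], 288),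
  (1258, [5, 3, 4, 5, 1, 2, 3, 4, 5, 0, 2, 4], 35),
  (805, [4, 2, 0], 4),
  (299, [3, 1], 3),
  (7, [2, 0], 3),
  (1, [1], 2),
  (2, [0], 2)]
def Tw : List Cfsg.Spor.Fi23.Gen := [.b, .c, .d, .e, .f, .g, .h, .b, .c, .d, .e, .f, .g, .h, .b, .c, .d, .e, .f, .g, .h, .b, .c, .d, .e, .f, .g, .h, .b, .c, .d, .e, .f, .g, .h, .b, .c, .d, .e, .f, .g, .h, .b, .c, .d, .e, .f, .g, .h, .b, .c, .d, .e, .f, .g, .h, .b, .c, .d, .e, .f, .g, .h]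
def Vj : List Cfsg.Spor.Fi23.Gen := [.g, .f, .e, .d, .h, .c, .d, .e, .b, .c, .d, .h, .f, .g, .e, .f, .d, .e, .c, .d, .h, .b, .c, .d, .e, .f, .g, .j]
def treeE : List (Cfsg.Spor.Fi23.Gen × Cfsg.Spor.Fi23.Gen) := [(.j, .g), (.g, .f), (.f, .e), (.e, .d), (.d, .c), (.c, .b), (.b, .a), (.d, .h), (.h, .i)]
def W0 : List Cfsg.Spor.Fi23.Gen := [.a, .b, .c, .d, .e, .f, .h, .a, .b, .c, .d, .e, .f, .h, .a, .b, .c, .d, .e, .f, .h, .a, .b, .c, .d, .e, .f, .h, .a, .b, .c, .d, .e, .f, .h, .a, .b, .c, .d, .e, .f, .h, .a, .b, .c, .d, .e, .f, .h, .a, .b, .c, .d, .e, .f, .h, .a, .b, .c, .d, .e, .f, .h]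

end Cfsg.Agent.Lib.Helper13.Fi23S
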