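import Cfsg.Agent.Lib.Helper13.Fi23SData
set_option autoImplicit false
set_option maxRecDepth 100000

open Cfsg.Agent.Lib.Helper13.CE

namespace Cfsg.Agent.Lib.Helper13.Fi23S

/-- the word of the cube of the product of the central involution `(bcdefgh)^9` with `j`. -/
def TJ3 : List Cfsg.Spor.Fi23.Gen := (Tw ++ [.j]) ++ ((Tw ++ [.j]) ++ (Tw ++ [.j]))

theorem hTJ3 : relOK Fi23x31671.nets 15 TJ3 = true := by decide +kernel
theorem hpg : wpos Fi23x31671.nets ([.j, .g] ++ Vj) 0 = 1827 := by decide +kernel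
theorem hpj : wpos Fi23x31671.nets Vj 0 = 8895 := by decide +kernel
theorem hpt : wpos Fi23x31671.nets Tw 3511 = 8895 := by decide +kernel

end Cfsg.Agent.Lib.Helper13.Fi23S
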