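import Cfsg.Agent.Lib.Helper13.Fi23x31671A0
import Cfsg.Agent.Lib.Helper13.Fi23x31671A1
import Cfsg.Agent.Lib.Helper13.Fi23x31671A2
import Cfsg.Agent.Lib.Helper13.Fi23x31671A3
import Cfsg.Agent.Lib.Helper13.Fi23x31671A4
set_option autoImplicit false
set_option maxRecDepth 100000

open Cfsg.Agent.Lib.Helper13.CE

namespace Cfsg.Agent.Lib.Helper13.Fi23x31671

theorem hT : treeOK par 10 tree Zs0 = true := by decide +kernel
theorem hcov : coverOK par ⟨Zs1, Ls4, 77, parB.AR.flatten.reverse, parB.AS.reverse⟩ = true := by decide +kernel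
theorem hA : checkA par 10 tree stepsA parB.AR.flatten parB.AS 77 = true :=
  checkA_of_parts par 10 tree stepsA _ _ 77 Zs0 Zs1 Ls4 hT
    (runA_chunk_cons par Zs0 (List.replicate 10 0) 1 sA0 _ Zs1 Ls1 9 _ hC0
    (runA_chunk_cons par Zs1 Ls1 9 sA1 _ Zs1 Ls2 19 _ hC1
    (runA_chunk_cons par Zs1 Ls2 19 sA2 _ Zs1 Ls3 39 _ hC2
    (runA_chunk_cons par Zs1 Ls3 39 sA3 _ Zs1 Ls4 77 _ hC3
    (runA_of_chunkOK par Zs1 Ls4 77 sA4 Zs1 Ls4 77 _ _ hC4))))) hcov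

end Cfsg.Agent.Lib.Helper13.Fi23x31671
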