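import Cfsg.Agent.Lib.Helper13.CosetY
set_option autoImplicit false
set_option maxRecDepth 100000

open Cfsg.Agent.Lib.Helper13.CE

namespace Cfsg.Agent.Lib.Helper13.HCK3

def netL : List (List (ℕ × ℕ)) := [[(0x455140541005, 1), (0x21000000120, 2), (0x70e05000e0c, 4), (0x4800ff0030, 8), (0x8700008700, 16), (0x870000, 32), (0x8700000000, 16), (0x870000, 8), (0x401060c0100, 4), (0x12000000210, 2), (0x100415014550, 1)],
  [(0x510444444510, 1), (0x320213021311, 2), (0x70401040102, 4), (0xd800ff00d8, 8), (0x2700002700, 16), (0x270000, 32), (0x2700000000, 16), (0x270000, 8), (0x50104010400, 4), (0x231302130200, 2), (0x510444444510, 1)],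
  [(0x44144441445, 1), (0x32101200103, 2), (0xf0508010c06, 4), (0x9000ff0090, 8), (0x2b00002b00, 16), (0x2b0000, 32), (0x2b00000000, 16), (0x2b0000, 8), (0x90801080100, 4), (0x300120012130, 2), (0x515550500010, 1)]]
def nets (i : Fin 3) : List (ℕ × ℕ) := netL.getD i.val []
def idx (i : Fin 3) : ℕ := i.val
def lettersW : List (Fin 3) := [0, 1, 2]
def relsW : List (List (Fin 3)) := [[0, 0],
  [1, 1],
  [2, 2],
  [0, 1, 0, 1, 0, 1, 0, 1],
  [0, 2, 0, 2],
  [1, 2, 1, 2, 1, 2]]
def extraW : List (List (Fin 3)) := []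
def subsW : List (List (Fin 3)) := []
def par : Par (Fin 3) := { nets := nets, idx := idx, letters := lettersW, rels := relsW, subs := subsW, n := 48, N := 64, P := 2, full := 2 ^ 48 - 1 }
def tree : List (Fin 3) := [0, 1, 2, 0, 1, 2, 0, 1, 2]
def sA0_0 : List (StepA (Fin 3)) := [.z 4 0, .z 4 1, .z 5 0, .z 5 1, .z 3 1, .z 4 0, .z 4 1, .z 5 1, .z 3 1]
def sA0 : List (StepA (Fin 3)) := sA0_0
def sA1_0 : List (StepA (Fin 3)) := []
def sA1 : List (StepA (Fin 3)) := sA1_0
def stepsA : List (StepA (Fin 3)) := sA0 ++ (sA1)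
def Zs0 : List ℕ := [0x93366eefd7, 0x15b66eefffff, 0xff6ddbb114bf]
def Zs1 : List ℕ := [0xffffffffffff, 0xffffffffffff, 0xffffffffffff]
def AR_0 : List (List ℕ) := []
def ARc : List (List (List ℕ)) := [AR_0]
def AR : List (List ℕ) := ARc.flatten
def AS_0 : List (List ℕ) := []
def AS : List (List ℕ) := AS_0
def defsB_0 : List (ℕ × ℕ) := []
def defsB : List (ℕ × ℕ) := defsB_0
def stepsB_0 : List (StepB) := []
def stepsB : List (StepB) := stepsB_0
def parB : ParB := { wd := 2, NL := 2, fuel := 64, AR := ARc, AS := AS, defs := defsB }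

end Cfsg.Agent.Lib.Helper13.HCK3
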