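import Cfsg.Agent.Lib.Helper13.HCK7A
import Cfsg.Agent.Lib.Helper13.HCK7B
import Cfsg.Agent.Lib.Helper13.HCK3P
import Cfsg.Agent.Lib.Helper13.CosetE7
set_option autoImplicit false
set_option maxRecDepth 100000

open Cfsg.Agent.Lib.Helper13.CE Cfsg.Spor

namespace Cfsg.Agent.Lib.Helper13.HCK7

def edges : List (Fin 7 × ℕ × Fin 7) :=
  [(0, 4, 1), (1, 3, 2), (1, 3, 5), (1, 3, 6), (3, 4, 4), (3, 4, 6), (4, 4, 5), (5, 4, 6)]

def extra : List (FreeGroup (Fin 7)) := [
  FreeGroup.of 4 * FreeGroup.of 5 * FreeGroup.of 4 * FreeGroup.of 3 * FreeGroup.of 4 * FreeGroup.of 5 * FreeGroup.of 4 * FreeGroup.of 3,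
  FreeGroup.of 4 * FreeGroup.of 5 * FreeGroup.of 4 * FreeGroup.of 5 * FreeGroup.of 6 * FreeGroup.of 3 * FreeGroup.of 6 * FreeGroup.of 3 * FreeGroup.of 0,
  FreeGroup.of 5 * FreeGroup.of 1 * FreeGroup.of 0 * FreeGroup.of 1 * FreeGroup.of 5 * FreeGroup.of 3 * FreeGroup.of 1 * FreeGroup.of 0 * FreeGroup.of 1 * FreeGroup.of 0,
  FreeGroup.of 6 * FreeGroup.of 1 * FreeGroup.of 0 * FreeGroup.of 1 * FreeGroup.of 6 * FreeGroup.of 4 * FreeGroup.of 1 * FreeGroup.of 0 * FreeGroup.of 1 * FreeGroup.of 0,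
  FreeGroup.of 4 * FreeGroup.of 6 * FreeGroup.of 3 * FreeGroup.of 5 * FreeGroup.of 6 * FreeGroup.of 4 * FreeGroup.of 5 * FreeGroup.of 3 * FreeGroup.of 2 * FreeGroup.of 0 ]

theorem hnodes : ∀ x : Fin 7, x ∈ coxNodes edges := by decide
theorem hletters : ∀ x : Fin 7, x ∈ par.letters := by decide
theorem hidx : Function.Injective par.idx := fun _ _ h => Fin.ext h

theorem hextra : List.Forall₂ (fun r W => ∀ (K : Type) [Group K] (s : Fin 7 → K),
    (∀ x, s x * s x = 1) → FreeGroup.lift s r = (W.map s).prod) extra extraW := by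
  have hinv : ∀ (K : Type) [Group K] (s : Fin 7 → K), (∀ x, s x * s x = 1) → ∀ x, (s x)⁻¹ = s x :=
    fun K _ s hs x => inv_eq_of_mul_eq_one_right (hs x)
  refine List.Forall₂.cons ?_ (List.Forall₂.cons ?_ (List.Forall₂.cons ?_ (List.Forall₂.cons ?_ (List.Forall₂.cons ?_ (List.Forall₂.nil)))))
  all_goals
    intro K _ s hs
    have hi := hinv K s hs
    simp only [map_mul, map_inv, FreeGroup.lift_apply_of, List.map_cons, List.map_nil,
      List.prod_cons, List.prod_nil, pow_succ, pow_zero, one_mul, mul_one, mul_inv_rev, hi, mul_assoc]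

theorem hrels : par.rels = relsGen edges par.letters extraW := by decide +kernel

/-- the group presented by the sub-diagram. -/
abbrev Grp : Type := PresentedGroup (coxRelators edges ∪ {r | r ∈ extra})

theorem main : ∃ (X : Act (Fin 7) Grp 448 9)
    (f : Grp ⧸ Subgroup.closure {g | ∃ W ∈ par.subs, g = PresentedGroup.mk
      (coxRelators edges ∪ {r | r ∈ extra}) ((W.map FreeGroup.of).prod)} ≃ Fin 448),
    X.nets = par.nets ∧
    (∀ W : List (Fin 7), X.ev W = PresentedGroup.mk (coxRelators edges ∪ {r | r ∈ extra})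
      ((W.map FreeGroup.of).prod)) ∧
    (∀ g, f (QuotientGroup.mk g) = X.φ g 0) :=
  cox_main2 edges extra 448 9 par extraW hnodes hletters hidx hextra hrels hstat 7 tree stepsA
    parB stepsB 209 hA rfl hB

/-- the sub-diagram. -/
def esub : Fin 3 → Fin 7 := ![0, 1, 2]

theorem hsubNodes : ∀ x ∈ coxNodes HCK3.edges, esub x ∈ coxNodes edges := by decide

theorem hsubLab : ∀ x ∈ coxNodes HCK3.edges, ∀ y ∈ coxNodes HCK3.edges,
    coxLabel HCK3.edges x y = coxLabel edges (esub x) (esub y) := by decide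

theorem hsubExtra : ∀ r ∈ HCK3.extra, PresentedGroup.mk (coxRelators edges ∪ {r | r ∈ extra})
    (FreeGroup.map esub r) = 1 := by
  intro r hr
  exact absurd hr (by simp [HCK3.extra])

theorem card_le : Finite Grp ∧ Nat.card Grp ≤ 448 * (48) := by
  obtain ⟨X, f, -, -, -⟩ := main
  exact card_le_of_presHom edges extra HCK3.edges HCK3.extra esub hsubNodes hsubLab hsubExtra
    _ HCK3.card_le.1 HCK3.card_le.2 par.subs (by decide) 448 f

end Cfsg.Agent.Lib.Helper13.HCK7
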