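import Cfsg.Agent.Lib.Helper13.He2058Data
set_option autoImplicit false
set_option maxRecDepth 100000

open Cfsg.Agent.Lib.Helper13.CE

namespace Cfsg.Agent.Lib.Helper13.He2058

theorem hB : checkB parB stepsB = true := by decide +kernel
theorem hstat : staticOK par 2058 12 = true := by decide +kernel
theorem horb1 : orbOK par.nets 2058 par.subs orb1 1 136 = true := by decide +kernel
theorem horb137 : orbOK par.nets 2058 par.subs orb137 137 136 = true := by decide +kernel
theorem horb273 : orbOK par.nets 2058 par.subs orb273 273 425 = true := by decide +kernel
theorem horb698 : orbOK par.nets 2058 par.subs orb698 698 1360 = true := by decide +kernel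

end Cfsg.Agent.Lib.Helper13.He2058
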