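import Cfsg.Agent.Lib.Helper13.HeCC0
import Cfsg.Agent.Lib.Helper13.HeCC1
import Cfsg.Agent.Lib.Helper13.HeCC2
import Cfsg.Agent.Lib.Helper13.HeCC3
import Cfsg.Agent.Lib.Helper13.HeCC4
import Cfsg.Agent.Lib.Helper13.HeCC5
import Cfsg.Agent.Lib.Helper13.HeCC6
import Cfsg.Agent.Lib.Helper13.HeCC7
import Cfsg.Agent.Lib.Helper13.HeCC8
import Cfsg.Agent.Lib.Helper13.HeCC9
import Cfsg.Agent.Lib.Helper13.HeCC10
import Cfsg.Agent.Lib.Helper13.HeCC11
import Cfsg.Agent.Lib.Helper13.HeCG0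
import Cfsg.Agent.Lib.Helper13.HeCG1
import Cfsg.Agent.Lib.Helper13.HeCG2
import Cfsg.Agent.Lib.Helper13.HeCG3
import Cfsg.Agent.Lib.Helper13.HeCG4
import Cfsg.Agent.Lib.Helper13.HeCG5
import Cfsg.Agent.Lib.Helper13.HeCG6
set_option autoImplicit false
set_option maxRecDepth 100000

/-!
21504 words for elements of the centraliser of `e` in the presented Held group and 3825
conjugates of `e` under the stabiliser of a point, with pairwise different actions.
-/

open Cfsg.Agent.Lib.Helper13.CE Cfsg.Spor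

namespace Cfsg.Agent.Lib.Helper13.HeCn

/-- words for the 21504 elements. -/
def cwL : List (List (Fin 7)) := cw0 ++ cw1 ++ cw2 ++ cw3 ++ cw4 ++ cw5 ++ cw6 ++ cw7 ++ cw8 ++ cw9 ++ cw10 ++ cw11

/-- conjugating words for the 3825 conjugates. -/
def gwL : List (List (Fin 7)) := gw0 ++ gw1 ++ gw2 ++ gw3 ++ gw4 ++ gw5 ++ gw6

theorem hcwmap : cwL.map (fun W => wcode (W.flatMap iw)) = ck0 ++ ck1 ++ ck2 ++ ck3 ++ ck4 ++ ck5 ++ ck6 ++ ck7 ++ ck8 ++ ck9 ++ ck10 ++ ck11 := by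
  simp only [cwL, List.map_append, hck0, hck1, hck2, hck3, hck4, hck5, hck6, hck7, hck8, hck9, hck10, hck11]

theorem hgwmap : gwL.map (fun W => wcode ((W.flatMap sw).reverse ++ [He.Gen.e] ++ W.flatMap sw)) =
    gk0 ++ gk1 ++ gk2 ++ gk3 ++ gk4 ++ gk5 ++ gk6 := by
  simp only [gwL, List.map_append, hgk0, hgk1, hgk2, hgk3, hgk4, hgk5, hgk6]

theorem hcw : incr (cwL.map (fun W => wcode (W.flatMap iw))) = true := by
  rw [hcwmap]
  decide +kernel

theorem hgw : incr (gwL.map (fun W => wcode ((W.flatMap sw).reverse ++ [He.Gen.e] ++ W.flatMap sw))) = true := by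
  rw [hgwmap]
  decide +kernel

theorem hcwlen : cwL.length = 21504 := by decide +kernel

theorem hgwlen : gwL.length = 3825 := by decide +kernel

end Cfsg.Agent.Lib.Helper13.HeCn
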