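import Cfsg.Agent.Lib.Helper13.HeO
import Cfsg.Agent.Lib.Helper13.HCK7P
import Cfsg.Agent.Lib.Helper13.HeCCk
import Cfsg.Agent.Lib.Helper13.CosetWords
set_option autoImplicit false
set_option maxRecDepth 100000

/-!
In the presented Held group, the centraliser of the generator `e` is isomorphic to a group
presented on seven involutions, of order 21504: its image has 21504 elements with different
actions, the generator `e` fixes 42 of the 2058 points, and it has 3825 conjugates under the
stabiliser of a point.
-/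

open Cfsg.Agent.Lib.Helper13.CE Cfsg.Spor

namespace Cfsg.Agent.Lib.Helper13.HeCn

/-- the value of a word in the presented group. -/
def val (W : List He.Gen) : He := PresentedGroup.mk HeO.Rel ((W.map FreeGroup.of).prod)

theorem val_append (V W : List He.Gen) : val (V ++ W) = val V * val W := by
  unfold val
  rw [List.map_append, List.prod_append, map_mul]

theorem val_nil : val [] = 1 := by
  unfold val
  simp

theorem val_eq_one (W : List He.Gen) (h : relOK He2058.nets 12 W = true) : val W = 1 := by
  obtain ⟨X, f, hnets, hev, hf, hinj, hcard⟩ := HeO.faithful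
  have h1 := X.ev_eq_one_of_inj hinj W (by rw [hnets]; exact h)
  rw [hev] at h1
  exact h1

theorem val_reverse (W : List He.Gen) : val W.reverse = (val W)⁻¹ := by
  obtain ⟨X, f, hnets, hev, hf, hinj, hcard⟩ := HeO.faithful
  have h := X.ev_reverse W
  rw [hev, hev] at h
  exact h

theorem wcode_congr (V W : List He.Gen) (h : val V = val W) : wcode V = wcode W := by
  obtain ⟨X, f, hnets, hev, hf, hinj, hcard⟩ := HeO.faithful
  have hVW : X.ev V = X.ev W := by rw [hev, hev]; exact h
  unfold wcode
  apply Nat.eq_of_testBit_eq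
  intro j
  rw [Nat.testBit_and, Nat.testBit_and]
  by_cases hj : j < 64
  · have hj' : j < 2058 := lt_trans hj (by norm_num)
    have h1 := X.testBit_wapply' V S0 ⟨j, hj'⟩
    have h2 := X.testBit_wapply' W S0 ⟨j, hj'⟩
    rw [hnets] at h1 h2
    rw [hVW] at h1
    have h3 : (wapply He2058.nets V S0).testBit j = (wapply He2058.nets W S0).testBit j :=
      h1.trans h2.symm
    rw [h3]
  · rw [Nat.testBit_two_pow_sub_one]
    simp [hj]

theorem incr_sound : ∀ l : List ℕ, incr l = true → l.Pairwise (· < ·)
  | [], _ => List.Pairwise.nil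
  | [_], _ => List.pairwise_singleton _ _
  | a :: b :: l, h => by
    simp only [incr, Bool.and_eq_true] at h
    have hab : a < b := Nat.le_of_ble_eq_true h.1
    have ih := incr_sound (b :: l) h.2
    refine List.Pairwise.cons ?_ ih
    intro x hx
    rcases List.mem_cons.mp hx with rfl | hx'
    · exact hab
    · exact lt_trans hab ((List.pairwise_cons.mp ih).1 x hx')

theorem nodup_of_incr (l : List ℕ) (h : incr l = true) : l.Nodup :=
  (incr_sound l h).imp (fun h => ne_of_lt h)

/-- a list without repetition of elements of a finite subgroup is not longer than its order. -/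
theorem length_le_card {G : Type*} [Group G] (H : Subgroup G) [Finite H] (l : List G)
    (hl : l.Nodup) (hm : ∀ x ∈ l, x ∈ H) : l.length ≤ Nat.card H := by
  classical
  haveI := Fintype.ofFinite H
  have h1 : (l.pmap (fun x hx => (⟨x, hx⟩ : H)) hm).Nodup :=
    hl.pmap (fun a _ b _ h => congrArg Subtype.val h)
  have h2 := h1.length_le_card
  rw [List.length_pmap] at h2
  rw [Nat.card_eq_fintype_card]
  exact h2

/-- the images of the generators. -/
def gC (l : Fin 7) : He := val (iw l)

theorem prod_gC (W : List (Fin 7)) : (W.map gC).prod = val (W.flatMap iw) := by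
  induction W with
  | nil => simp [val_nil]
  | cons x W ih =>
    rw [List.map_cons, List.prod_cons, ih, List.flatMap_cons, val_append]
    rfl

theorem prod_rel : ∀ W ∈ relsGen HCK7.edges HCK7.par.letters HCK7.extraW,
    (W.map gC).prod = 1 := by
  intro W hW
  have hW' : W ∈ HCK7.par.rels := by rw [HCK7.hrels]; exact hW
  rw [prod_gC]
  exact val_eq_one _ (List.all_eq_true.mp hR W hW')

/-- the homomorphism from the presented group of order at most 21504. -/
def psi : HCK7.Grp →* He :=
  PresentedGroup.toGroup (lift_eq_one_of_relsGen HCK7.edges HCK7.extra HCK7.par.letters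
    HCK7.extraW HCK7.hletters HCK7.hextra gC prod_rel)

theorem psi_of (l : Fin 7) : psi (PresentedGroup.of l) = gC l := PresentedGroup.toGroup.of _

theorem psi_prod (W : List (Fin 7)) :
    psi ((W.map PresentedGroup.of).prod) = val (W.flatMap iw) := by
  rw [map_list_prod, List.map_map, ← prod_gC]
  have h : (psi ∘ PresentedGroup.of) = gC := funext psi_of
  rw [h]

/-- the involution. -/
def t : He := val [He.Gen.e]

theorem gC_comm (l : Fin 7) : t * gC l = gC l * t := by
  obtain ⟨X, f, hnets, hev, hf, hinj, hcard⟩ := HeO.faithful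
  have h := X.comm_of_relOK hinj [He.Gen.e] (iw l) (by rw [hnets]; exact hcomm l)
  rw [hev, hev] at h
  exact h

theorem range_le : psi.range ≤ Subgroup.centralizer ({t} : Set He) := by
  rw [MonoidHom.range_eq_map, ← PresentedGroup.closure_range_of, MonoidHom.map_closure,
    Subgroup.closure_le]
  rintro _ ⟨_, ⟨l, rfl⟩, rfl⟩
  rw [psi_of, SetLike.mem_coe, Subgroup.mem_centralizer_iff]
  intro h hh
  rw [Set.mem_singleton_iff] at hh
  rw [hh]
  exact gC_comm l

theorem card_range_ge : 21504 ≤ Nat.card psi.range := by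
  haveI : Finite He := HeO.finite
  have h0 := nodup_of_incr _ hcw
  have hnd : (cwL.map (fun W => val (W.flatMap iw))).Nodup := by
    refine List.Nodup.map_on ?_ (List.Nodup.of_map _ h0)
    intro x hx y hy hxy
    exact List.inj_on_of_nodup_map h0 hx hy (wcode_congr _ _ hxy)
  have h := length_le_card psi.range _ hnd (by
    intro x hx
    obtain ⟨W, -, rfl⟩ := List.mem_map.mp hx
    exact ⟨_, psi_prod W⟩)
  rw [List.length_map, hcwlen] at h
  exact h

/-- orbit and stabiliser, upper bound. -/
theorem card_le_orbit_mul {G : Type*} [Group G] {n : ℕ} (φ : G →* Equiv.Perm (Fin n))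
    (K K' : Subgroup G) [Finite K] [Finite K'] (b : Fin n)
    (hstab : ∀ h ∈ K, φ h b = b → h ∈ K') :
    Nat.card K ≤ Set.ncard {c : Fin n | ∃ h ∈ K, φ h b = c} * Nat.card K' := by
  letI : MulAction K (Fin n) := MulAction.compHom (Fin n) (φ.comp K.subtype)
  have hsm : ∀ (x : K) (c : Fin n), x • c = φ (x : G) c := fun _ _ => rfl
  have h1 := Subgroup.card_eq_card_quotient_mul_card_subgroup (MulAction.stabilizer K b)
  have h2 : Nat.card (K ⧸ MulAction.stabilizer K b) = Nat.card (MulAction.orbit K b) :=
    Nat.card_congr (MulAction.orbitEquivQuotientStabilizer K b).symm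
  have h3 : (MulAction.orbit K b) = {c : Fin n | ∃ h ∈ K, φ h b = c} := by
    ext c
    constructor
    · rintro ⟨x, rfl⟩
      exact ⟨x.1, x.2, (hsm x b).symm⟩
    · rintro ⟨h, hh, rfl⟩
      exact ⟨⟨h, hh⟩, hsm ⟨h, hh⟩ b⟩
  have h4 : Nat.card (MulAction.stabilizer K b) ≤ Nat.card K' := by
    apply Nat.card_le_card_of_injective
      (fun x : MulAction.stabilizer K b => (⟨x.1.1, hstab x.1.1 x.1.2 (by
        have := x.2
        rw [MulAction.mem_stabilizer_iff, hsm] at this
        exact this)⟩ : K'))
    intro a a' e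
    apply Subtype.ext
    apply Subtype.ext
    exact congrArg (fun x : K' => (x : G)) e
  rw [h1, h2, Nat.card_coe_set_eq, h3]
  exact Nat.mul_le_mul_left _ h4

/-- the generator `e` fixes at most 42 points. -/
theorem ncard_fix_le (X : Act He.Gen He 2058 12) (hnets : X.nets = He2058.par.nets) :
    Set.ncard {c : Fin 2058 | X.φ (X.ev [He.Gen.e]) c = c} ≤ 42 := by
  obtain ⟨h1, h2, h3⟩ := hS12
  have hc : 2016 ≤ ({c : Fin 2058 | (S1 ||| S2).testBit c = true} : Set (Fin 2058)).ncard := by
    have := cnt_le_ncard (S1 ||| S2) 2058 {c : Fin 2058 | (S1 ||| S2).testBit c = true}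
      (fun c hc => hc)
    rw [h3] at this
    exact this
  have hdisj : Disjoint {c : Fin 2058 | X.φ (X.ev [He.Gen.e]) c = c}
      {c : Fin 2058 | (S1 ||| S2).testBit c = true} := by
    rw [Set.disjoint_left]
    intro c hfix hm
    rw [Set.mem_setOf_eq] at hfix hm
    have hw := X.testBit_wapply' [He.Gen.e] S1 c
    rw [hnets, hfix] at hw
    have hw' : S2.testBit c = S1.testBit c := by
      rw [show wapply He2058.par.nets [He.Gen.e] S1 = S2 from h1] at hw
      exact hw
    have hand : (S1 &&& S2).testBit c = false := by rw [h2]; exact Nat.zero_testBit _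
    rw [Nat.testBit_and, hw'] at hand
    rw [Nat.testBit_or, hw'] at hm
    cases h : S1.testBit (c : ℕ) <;> simp [h] at hand hm
  have hun := Set.ncard_union_eq hdisj (Set.toFinite _) (Set.toFinite _)
  have hle := Set.ncard_le_card ({c : Fin 2058 | X.φ (X.ev [He.Gen.e]) c = c} ∪
      {c : Fin 2058 | (S1 ||| S2).testBit c = true})
  rw [Nat.card_fin] at hle
  omega

theorem card_cent_le_aux : Nat.card (Subgroup.centralizer ({t} : Set He)) ≤
    42 * Nat.card ↥(Subgroup.centralizer ({t} : Set He) ⊓ HeO.HB) := by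
  obtain ⟨X, f, hnets, hev, hf, hinj, hcard⟩ := HeO.faithful
  haveI : Finite He := HeO.finite
  have ht : X.ev [He.Gen.e] = t := hev _
  have h0 : X.φ t 0 = 0 := by
    apply Fin.ext
    rw [← ht, X.φ_ev_val, hnets]
    exact hfix0
  have h1 := card_le_orbit_mul X.φ (Subgroup.centralizer ({t} : Set He))
    (Subgroup.centralizer ({t} : Set He) ⊓ HeO.HB) 0 (by
      intro h hh hfix
      exact ⟨hh, (X.mem_iff_φ_zero HeO.HB f hf h).mpr hfix⟩)
  have h2 : Set.ncard {c : Fin 2058 | ∃ h ∈ Subgroup.centralizer ({t} : Set He),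
      X.φ h 0 = c} ≤ 42 := by
    refine le_trans (Set.ncard_le_ncard ?_ (Set.toFinite _)) (ncard_fix_le X hnets)
    rintro c ⟨h, hh, rfl⟩
    rw [Set.mem_setOf_eq, ht]
    rw [Subgroup.mem_centralizer_iff] at hh
    have hc := hh t (Set.mem_singleton t)
    calc X.φ t (X.φ h 0) = X.φ (t * h) 0 := by rw [map_mul]; rfl
      _ = X.φ (h * t) 0 := by rw [hc]
      _ = X.φ h (X.φ t 0) := by rw [map_mul]; rfl
      _ = X.φ h 0 := by rw [h0]
  exact le_trans h1 (Nat.mul_le_mul_right _ h2)

theorem card_HB : Nat.card HeO.HB = 1958400 := by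
  obtain ⟨X, f, hnets, hev, hf, hinj, hcard⟩ := HeO.faithful
  have h := card_eq_of_index HeO.HB 2058 f
  rw [hcard] at h
  omega

theorem sw_mem (l : Fin 7) : val (sw l) ∈ HeO.HB :=
  Subgroup.subset_closure ⟨sw l, hsw l, rfl⟩

theorem sflat_mem (W : List (Fin 7)) : val (W.flatMap sw) ∈ HeO.HB := by
  induction W with
  | nil => rw [List.flatMap_nil, val_nil]; exact one_mem _
  | cons x W ih => rw [List.flatMap_cons, val_append]; exact mul_mem (sw_mem x) ih

theorem card_stab_cent_le :
    3825 * Nat.card ↥(Subgroup.centralizer ({t} : Set He) ⊓ HeO.HB) ≤ 1958400 := by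
  classical
  haveI : Finite He := HeO.finite
  have hconj : ∀ W : List He.Gen,
      val (W.reverse ++ [He.Gen.e] ++ W) = (val W)⁻¹ * t * val W := by
    intro W
    rw [val_append, val_append, val_reverse]
    rfl
  have h0 := nodup_of_incr _ hgw
  have hnd : (gwL.map (fun W => (QuotientGroup.mk
      (⟨val (W.flatMap sw), sflat_mem W⟩ : HeO.HB)⁻¹ : HeO.HB ⧸
        (Subgroup.centralizer ({t} : Set He) ⊓ HeO.HB).subgroupOf HeO.HB))).Nodup := by
    refine List.Nodup.map_on ?_ (List.Nodup.of_map _ h0)
    intro x hx y hy hxy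
    apply List.inj_on_of_nodup_map h0 hx hy
    apply wcode_congr
    rw [hconj, hconj]
    have h1 : ((⟨val (x.flatMap sw), sflat_mem x⟩ : HeO.HB)⁻¹)⁻¹ *
        (⟨val (y.flatMap sw), sflat_mem y⟩ : HeO.HB)⁻¹ ∈
        (Subgroup.centralizer ({t} : Set He) ⊓ HeO.HB).subgroupOf HeO.HB :=
      QuotientGroup.eq.mp hxy
    rw [inv_inv] at h1
    have h1b := Subgroup.mem_subgroupOf.mp h1
    have h1' : val (x.flatMap sw) * (val (y.flatMap sw))⁻¹ ∈
        Subgroup.centralizer ({t} : Set He) := h1b.1
    rw [Subgroup.mem_centralizer_iff] at h1'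
    have h2 := h1' t (Set.mem_singleton t)
    calc (val (x.flatMap sw))⁻¹ * t * val (x.flatMap sw)
        = (val (x.flatMap sw))⁻¹ * (t * (val (x.flatMap sw) * (val (y.flatMap sw))⁻¹)) *
          val (y.flatMap sw) := by group
      _ = (val (x.flatMap sw))⁻¹ * (val (x.flatMap sw) * (val (y.flatMap sw))⁻¹ * t) *
          val (y.flatMap sw) := by rw [h2]
      _ = (val (y.flatMap sw))⁻¹ * t * val (y.flatMap sw) := by group
  haveI := Fintype.ofFinite (HeO.HB ⧸
    (Subgroup.centralizer ({t} : Set He) ⊓ HeO.HB).subgroupOf HeO.HB)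
  have h3 := hnd.length_le_card
  rw [List.length_map, hgwlen, ← Nat.card_eq_fintype_card] at h3
  have h4 := Subgroup.card_eq_card_quotient_mul_card_subgroup
    ((Subgroup.centralizer ({t} : Set He) ⊓ HeO.HB).subgroupOf HeO.HB)
  have h5 : Nat.card ((Subgroup.centralizer ({t} : Set He) ⊓ HeO.HB).subgroupOf HeO.HB) =
      Nat.card ↥(Subgroup.centralizer ({t} : Set He) ⊓ HeO.HB) :=
    Nat.card_congr (Subgroup.subgroupOfEquivOfLe inf_le_right).toEquiv
  rw [card_HB, h5] at h4
  calc 3825 * Nat.card ↥(Subgroup.centralizer ({t} : Set He) ⊓ HeO.HB)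
      ≤ Nat.card (HeO.HB ⧸ (Subgroup.centralizer ({t} : Set He) ⊓ HeO.HB).subgroupOf HeO.HB) *
          Nat.card ↥(Subgroup.centralizer ({t} : Set He) ⊓ HeO.HB) :=
        Nat.mul_le_mul_right _ h3
    _ = 1958400 := h4.symm

theorem card_centralizer_le : Nat.card (Subgroup.centralizer ({t} : Set He)) ≤ 21504 := by
  have h1 := card_cent_le_aux
  have h2 := card_stab_cent_le
  omega

theorem psi_injective : Function.Injective psi := by
  haveI : Finite HCK7.Grp := HCK7.card_le.1
  have h1 : Nat.card HCK7.Grp ≤ Nat.card psi.range :=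
    le_trans HCK7.card_le.2 (le_trans (by norm_num) card_range_ge)
  have hb := Function.Surjective.bijective_of_nat_card_le psi.rangeRestrict_surjective h1
  intro a a' e
  apply hb.1
  exact Subtype.ext e

theorem range_eq : psi.range = Subgroup.centralizer ({t} : Set He) := by
  haveI : Finite He := HeO.finite
  exact Subgroup.eq_of_le_of_card_ge range_le (le_trans card_centralizer_le card_range_ge)

/-- the presented group is isomorphic to the centraliser. -/
noncomputable def equivCent : HCK7.Grp ≃* Subgroup.centralizer ({t} : Set He) :=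
  (MonoidHom.ofInjective psi_injective).trans (MulEquiv.subgroupCongr range_eq)

theorem t_sq : t * t = 1 := by
  have h := val_eq_one [He.Gen.e, He.Gen.e] hsq
  rw [show ([He.Gen.e, He.Gen.e] : List He.Gen) = [He.Gen.e] ++ [He.Gen.e] from rfl,
    val_append] at h
  exact h

theorem t_ne_one : t ≠ 1 := by
  obtain ⟨X, f, hnets, hev, hf, hinj, hcard⟩ := HeO.faithful
  intro h
  have h1 := X.φ_ev_ne_one [He.Gen.e] ⟨1, by norm_num⟩ (by rw [hnets]; exact hne)
  apply h1
  rw [hev]
  have h3 : PresentedGroup.mk HeO.Rel ((([He.Gen.e] : List He.Gen).map FreeGroup.of).prod) = 1 := h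
  rw [h3, map_one]

theorem orderOf_t : orderOf t = 2 :=
  orderOf_eq_prime (by rw [pow_two]; exact t_sq) t_ne_one

theorem card_Grp : Nat.card HCK7.Grp = 21504 := by
  haveI : Finite He := HeO.finite
  have h1 := Nat.card_congr equivCent.toEquiv
  have h2 := card_centralizer_le
  have h3 := HCK7.card_le.2
  have h4 := card_range_ge
  rw [range_eq] at h4
  omega

end Cfsg.Agent.Lib.Helper13.HeCn
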