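import Cfsg.Agent.Lib.Helper13.HeCen
import Cfsg.Agent.Lib.Helper13.HCTData
import Cfsg.Agent.Lib.Helper19.TransvCent
import Cfsg.Agent.Lib.Helper1.HeClosure
set_option autoImplicit false

/-!
The centraliser of the generator `e` of the presented Held group is isomorphic to the centraliser
of a transvection of `SL(5, 2)`: both are isomorphic to a group presented on seven involutions.
-/

open Cfsg.Agent.Lib.Helper13 Cfsg.Agent.Lib.Helper13.CE

namespace Cfsg.Agent.Lib.Helper13.HeCnT

theorem main (s : Matrix.SpecialLinearGroup (Fin 5) (ZMod 2)) (hs : (s : Matrix (Fin 5) (Fin 5) (ZMod 2)) = Matrix.transvection 0 1 1) : ∃ z : Cfsg.Spor.He, orderOf z = 2 ∧ Nonempty (↥(Subgroup.centralizer ({z} : Set Cfsg.Spor.He)) ≃* ↥(Subgroup.centralizer ({s} : Set (Matrix.SpecialLinearGroup (Fin 5) (ZMod 2))))) := by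
  classical
  have hrel : HCK7.par.rels = HCT.relW := by decide
  let fT : HCK7.Grp →* Matrix.SpecialLinearGroup (Fin 5) (ZMod 2) :=
    PresentedGroup.toGroup (lift_eq_one_of_relsGen HCK7.edges HCK7.extra HCK7.par.letters
      HCK7.extraW HCK7.hletters HCK7.hextra Cfsg.Agent.Lib.Helper1.HeGens.mgen (by
        intro W hW
        exact Cfsg.Agent.Lib.Helper1.HeGens.rel_one W (by rw [← hrel, HCK7.hrels]; exact hW)))
  have fT_of : ∀ l, fT (PresentedGroup.of l) = Cfsg.Agent.Lib.Helper1.HeGens.mgen l :=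
    fun l => PresentedGroup.toGroup.of _
  have hrange : fT.range = Subgroup.closure (Set.range Cfsg.Agent.Lib.Helper1.HeGens.mgen) := by
    rw [MonoidHom.range_eq_map, ← PresentedGroup.closure_range_of, MonoidHom.map_closure]
    congr 1
    ext x
    constructor
    · rintro ⟨_, ⟨l, rfl⟩, rfl⟩
      exact ⟨l, (fT_of l).symm⟩
    · rintro ⟨l, rfl⟩
      exact ⟨_, ⟨l, rfl⟩, fT_of l⟩
  have hle : fT.range ≤ Subgroup.centralizer ({s} : Set (Matrix.SpecialLinearGroup (Fin 5) (ZMod 2))) := by
    rw [hrange, Subgroup.closure_le]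
    rintro _ ⟨l, rfl⟩
    exact Cfsg.Agent.Lib.Helper1.HeGens.mgen_mem s hs l
  have hge : 21504 ≤ Nat.card fT.range := by
    rw [hrange]
    exact Cfsg.Agent.Lib.Helper1.HeGens.card_closure_ge
  have hT := Cfsg.Agent.Lib.Helper19.TransvCent.card_cent_transvection_le s hs
  have hrange_eq : fT.range = Subgroup.centralizer ({s} : Set (Matrix.SpecialLinearGroup (Fin 5) (ZMod 2))) :=
    Subgroup.eq_of_le_of_card_ge hle (le_trans hT hge)
  have hinj : Function.Injective fT := by
    haveI : Finite HCK7.Grp := HCK7.card_le.1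
    have h1 : Nat.card HCK7.Grp ≤ Nat.card fT.range :=
      le_trans HCK7.card_le.2 (le_trans (by norm_num) hge)
    have hb := Function.Surjective.bijective_of_nat_card_le fT.rangeRestrict_surjective h1
    intro a a' e
    apply hb.1
    exact Subtype.ext e
  exact ⟨HeCn.t, HeCn.orderOf_t, ⟨HeCn.equivCent.symm.trans
    ((MonoidHom.ofInjective hinj).trans (MulEquiv.subgroupCongr hrange_eq))⟩⟩

end Cfsg.Agent.Lib.Helper13.HeCnT
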