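import Cfsg.Agent.Lib.Helper13.HeKData
import Cfsg.Agent.Lib.Helper13.HeKS0
import Cfsg.Agent.Lib.Helper13.HeKS3
import Cfsg.Agent.Lib.Helper13.HeKA25
set_option autoImplicit false
set_option maxRecDepth 100000

open Cfsg.Agent.Lib.Helper13.CE

namespace Cfsg.Agent.Lib.Helper13.HeK

theorem hC31 : chunkOK HeJ.par Zs1 Ls31 6876 sA31 Zs1 Ls32 7108 [] [] = true := by decide +kernel

end Cfsg.Agent.Lib.Helper13.HeK
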