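import Cfsg.Agent.Lib.Helper13.HeKData
import Cfsg.Agent.Lib.Helper13.HeKS0
import Cfsg.Agent.Lib.Helper13.HeKS5
import Cfsg.Agent.Lib.Helper13.HeKA47
set_option autoImplicit false
set_option maxRecDepth 100000

open Cfsg.Agent.Lib.Helper13.CE

namespace Cfsg.Agent.Lib.Helper13.HeK

theorem hC53 : chunkOK HeJ.par Zs1 Ls40 9939 sA53 Zs1 Ls40 9939 (((HeJ.parB.AR.flatten.drop 4379).take 365).reverse) [] = true := by decide +kernel

end Cfsg.Agent.Lib.Helper13.HeK
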