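import Cfsg.Agent.Lib.Helper13.He2058Data
import Cfsg.Agent.Lib.Helper13.CosetPrim
set_option autoImplicit false
set_option maxRecDepth 100000

open Cfsg.Agent.Lib.Helper13.CE

namespace Cfsg.Agent.Lib.Helper13.HePrim

def orbs : List (ℕ × ℕ × List ℕ × List (Cfsg.Spor.He.Gen) × List ℕ) := [(1, 136, [3, 4, 5, 6, 0, 2, 4, 6, 1, 2, 3, 4, 1, 2, 3], [.g, .d, .c, .d, .c, .b], [0, 1, 2, 3, 4, 5, 6, 7, 0, 1, 2, 3, 4, 5, 6, 7, 0, 1, 2, 3, 4, 0]),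
  (137, 136, [0, 1, 2, 3, 4, 5, 6, 0, 1, 2, 4, 6, 1, 2, 4], [.g, .d, .b, .c, .d, .g], [0, 4, 5, 6, 7, 0, 1, 2, 3, 4, 5, 6, 7, 0, 1, 2, 3, 4, 5, 6, 7, 0]),
  (273, 425, [2, 3, 4, 6, 0, 1, 2, 3, 4, 6, 1, 2, 3, 4, 1, 2, 3, 4, 6, 1, 2], [.g], [0, 3, 4, 5, 7, 0, 1, 2, 3, 4, 5, 7, 0, 1, 2, 3, 4, 5, 7, 0, 1, 2, 3, 4, 5, 7, 0, 2]),
  (698, 1360, [1, 2, 3, 4, 6, 0, 1, 2, 3, 4, 6, 0, 1, 2, 3, 4, 6, 0, 1, 2, 3, 4, 6, 0, 1, 2], [.b], [0, 2, 3, 4, 5, 7, 1, 2, 3, 4, 5, 7, 0, 1, 2, 3, 4, 5, 7, 0, 1, 2, 3, 4, 5, 7, 0, 2, 3, 2, 3, 5, 7, 1])]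

theorem hcov : rngCover 2058 1 orbs = true := by decide +kernel
theorem hprim : orbs.all (primOK He2058.par.nets 2058 He2058.par.subs) = true := by decide +kernel

end Cfsg.Agent.Lib.Helper13.HePrim
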