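import Cfsg.Agent.Lib.Helper13.HeQ1A
import Cfsg.Agent.Lib.Helper13.HeQ1B
import Cfsg.Agent.Lib.Helper13.HeQ1JA
import Cfsg.Agent.Lib.Helper13.HeQ1JB
import Cfsg.Agent.Lib.Helper13.HeQ0P
set_option autoImplicit false
set_option maxRecDepth 100000

/-!
A presentation of a group of order at most `8064 * 20` on six involutions, and a subgroup of
index two of it.
-/

open Cfsg.Agent.Lib.Helper13.CE Cfsg.Spor

namespace Cfsg.Agent.Lib.Helper13.HeQ1

def edges : List (Fin 6 × ℕ × Fin 6) :=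
  [(0, 10, 1), (1, 3, 3), (1, 3, 4), (4, 4, 5), (5, 3, 1), (0, 2, 2)]

def extra : List (FreeGroup (Fin 6)) := [
  FreeGroup.of 3 * ((FreeGroup.of 4 * FreeGroup.of 5) ^ 2)⁻¹,
  FreeGroup.of 2 * ((FreeGroup.of 0 * FreeGroup.of 1) ^ 5)⁻¹,
  (FreeGroup.of 0 * FreeGroup.of 1 * FreeGroup.of 4 * FreeGroup.of 5) ^ 4 ]

theorem hnodes : ∀ x : Fin 6, x ∈ coxNodes edges := by decide
theorem hletters : ∀ x : Fin 6, x ∈ par.letters := by decide
theorem hidx : Function.Injective par.idx := fun _ _ h => Fin.ext h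
theorem hlettersJ : ∀ x : Fin 6, x ∈ HeQ1J.par.letters := by decide
theorem hidxJ : Function.Injective HeQ1J.par.idx := fun _ _ h => Fin.ext h

theorem hextra : List.Forall₂ (fun r W => ∀ (K : Type) [Group K] (s : Fin 6 → K),
    (∀ x, s x * s x = 1) → FreeGroup.lift s r = (W.map s).prod) extra extraW := by
  have hinv : ∀ (K : Type) [Group K] (s : Fin 6 → K), (∀ x, s x * s x = 1) → ∀ x, (s x)⁻¹ = s x :=
    fun K _ s hs x => inv_eq_of_mul_eq_one_right (hs x)
  refine List.Forall₂.cons ?_ (List.Forall₂.cons ?_ (List.Forall₂.cons ?_ (List.Forall₂.nil)))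
  all_goals
    intro K _ s hs
    have hi := hinv K s hs
    simp only [map_mul, map_inv, map_pow, FreeGroup.lift_apply_of, List.map_cons, List.map_nil,
      List.prod_cons, List.prod_nil, pow_succ, pow_zero, one_mul, mul_one, mul_inv_rev, hi, mul_assoc]

theorem hextraJ : List.Forall₂ (fun r W => ∀ (K : Type) [Group K] (s : Fin 6 → K),
    (∀ x, s x * s x = 1) → FreeGroup.lift s r = (W.map s).prod) extra HeQ1J.extraW := hextra

theorem hrels : par.rels = relsGen edges par.letters extraW := by decide +kernel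

theorem hrelsJ : HeQ1J.par.rels = relsGen edges HeQ1J.par.letters HeQ1J.extraW := by
  decide +kernel

/-- the presented group. -/
abbrev Grp : Type := PresentedGroup (coxRelators edges ∪ {r | r ∈ extra})

theorem main : ∃ (X : Act (Fin 6) Grp 8064 13)
    (f : Grp ⧸ Subgroup.closure {g | ∃ W ∈ par.subs, g = PresentedGroup.mk
      (coxRelators edges ∪ {r | r ∈ extra}) ((W.map FreeGroup.of).prod)} ≃ Fin 8064),
    X.nets = par.nets ∧
    (∀ W : List (Fin 6), X.ev W = PresentedGroup.mk (coxRelators edges ∪ {r | r ∈ extra})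
      ((W.map FreeGroup.of).prod)) ∧
    (∀ g, f (QuotientGroup.mk g) = X.φ g 0) :=
  cox_main2 edges extra 8064 13 par extraW hnodes hletters hidx hextra hrels hstat 6 tree stepsA
    parB stepsB 1247 hA rfl hB

/-- the subgroup of index two. -/
def J : Subgroup Grp :=
  Subgroup.closure {g | ∃ W ∈ HeQ1J.par.subs, g = PresentedGroup.mk
    (coxRelators edges ∪ {r | r ∈ extra}) ((W.map FreeGroup.of).prod)}

theorem mainJ : ∃ (X : Act (Fin 6) Grp 2 1) (f : Grp ⧸ J ≃ Fin 2),
    X.nets = HeQ1J.par.nets ∧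
    (∀ W : List (Fin 6), X.ev W = PresentedGroup.mk (coxRelators edges ∪ {r | r ∈ extra})
      ((W.map FreeGroup.of).prod)) ∧
    (∀ g, f (QuotientGroup.mk g) = X.φ g 0) :=
  cox_main2 edges extra 2 1 HeQ1J.par HeQ1J.extraW hnodes hlettersJ hidxJ hextraJ hrelsJ
    HeQ1J.hstat 6 HeQ1J.tree HeQ1J.stepsA HeQ1J.parB HeQ1J.stepsB 7 HeQ1J.hA rfl HeQ1J.hB

/-- the sub-diagram. -/
def esub : Fin 3 → Fin 6 := ![0, 1, 2]

theorem hsubNodes : ∀ x ∈ coxNodes HeQ0.edges, esub x ∈ coxNodes edges := by decide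

theorem hsubLab : ∀ x ∈ coxNodes HeQ0.edges, ∀ y ∈ coxNodes HeQ0.edges,
    coxLabel HeQ0.edges x y = coxLabel edges (esub x) (esub y) := by decide

theorem hsubExtra : ∀ r ∈ HeQ0.extra, PresentedGroup.mk (coxRelators edges ∪ {r | r ∈ extra})
    (FreeGroup.map esub r) = 1 := by
  intro r hr
  apply PresentedGroup.one_of_mem
  right
  show _ ∈ extra
  simp only [HeQ0.extra, List.mem_cons, List.mem_nil_iff, or_false] at hr
  rcases hr with rfl
  all_goals simp [extra, esub]

theorem card_le : Finite Grp ∧ Nat.card Grp ≤ 8064 * 20 := by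
  obtain ⟨X, f, -, -, -⟩ := main
  exact card_le_of_presHom edges extra HeQ0.edges HeQ0.extra esub hsubNodes hsubLab hsubExtra
    _ HeQ0.card_le.1 HeQ0.card_le.2 par.subs (by decide) 8064 f

instance finite : Finite Grp := card_le.1

theorem card_J : Nat.card J ≤ 80640 := by
  obtain ⟨X, f, -, -, -⟩ := mainJ
  have h1 := card_eq_of_index J 2 f
  have h2 := card_le.2
  omega

end Cfsg.Agent.Lib.Helper13.HeQ1
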