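import Cfsg.Agent.Lib.Helper13.HeKA
import Cfsg.Agent.Lib.Helper13.HeJB
import Cfsg.Agent.Lib.Helper13.He2058A
import Cfsg.Agent.Lib.Helper13.He2058B
import Cfsg.Agent.Lib.Helper13.HeQ1P
import Cfsg.Agent.Lib.Helper13.CosetPresSub
import Cfsg.Agent.Lib.Helper13.HeSChk
import Cfsg.Agent.Lib.Helper13.HePrim
set_option autoImplicit false
set_option maxRecDepth 100000

/-!
The presented Held group: its order, a faithful primitive action on 2058 points, and simplicity.
The order bound comes from the index 49980 of the subgroup generated by `d, e, f, g, cdc, ac`,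
which is the image of a subgroup of index two of the group presented by the sub-diagram on
`c, d, a, e, f, g`.
-/

open Cfsg.Agent.Lib.Helper13.CE Cfsg.Spor

namespace Cfsg.Agent.Lib.Helper13.HeO

theorem hnodes : ∀ x : He.Gen, x ∈ coxNodes He.edges := by
  intro x; cases x <;> decide

theorem hlettersJ : ∀ x : He.Gen, x ∈ HeJ.par.letters := by
  intro x; cases x <;> decide

theorem hlettersB : ∀ x : He.Gen, x ∈ He2058.par.letters := by
  intro x; cases x <;> decide

theorem hidxJ : Function.Injective HeJ.par.idx := by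
  intro x y h
  cases x <;> cases y <;> first | rfl | exact absurd h (by decide)

theorem hidxB : Function.Injective He2058.par.idx := by
  intro x y h
  cases x <;> cases y <;> first | rfl | exact absurd h (by decide)

theorem hextraJ : List.Forall₂ (fun r W => ∀ (K : Type) [Group K] (s : He.Gen → K),
    (∀ x, s x * s x = 1) → FreeGroup.lift s r = (W.map s).prod) He.extra HeJ.extraW := by
  have hinv : ∀ (K : Type) [Group K] (s : He.Gen → K), (∀ x, s x * s x = 1) → ∀ x, (s x)⁻¹ = s x :=
    fun K _ s hs x => inv_eq_of_mul_eq_one_right (hs x)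
  refine List.Forall₂.cons ?_ (List.Forall₂.cons ?_ (List.Forall₂.cons ?_ (List.Forall₂.cons ?_ (List.Forall₂.nil))))
  all_goals
    intro K _ s hs
    have hi := hinv K s hs
    simp only [He.a, He.b, He.c, He.d, He.e, He.f, He.g, map_mul, map_inv, map_pow,
      FreeGroup.lift_apply_of, List.map_cons, List.map_nil, List.prod_cons, List.prod_nil,
      pow_succ, pow_zero, one_mul, mul_one, mul_inv_rev, hi, mul_assoc]

theorem hextraB : List.Forall₂ (fun r W => ∀ (K : Type) [Group K] (s : He.Gen → K),
    (∀ x, s x * s x = 1) → FreeGroup.lift s r = (W.map s).prod) He.extra He2058.extraW :=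
  hextraJ

/-- the relators. -/
abbrev Rel : Set (FreeGroup He.Gen) := coxRelators He.edges ∪ {r | r ∈ He.extra}

/-- the subgroup generated by `d, e, f, g, cdc, ac`. -/
def HJ : Subgroup He :=
  Subgroup.closure {g | ∃ W ∈ HeJ.par.subs,
    g = PresentedGroup.mk Rel ((W.map FreeGroup.of).prod)}

/-- the subgroup generated by `a, c, d, e, f, (ab)^2, (bcde)^7`. -/
def HB : Subgroup He :=
  Subgroup.closure {g | ∃ W ∈ He2058.par.subs,
    g = PresentedGroup.mk Rel ((W.map FreeGroup.of).prod)}

theorem mainJ : ∃ (X : Act He.Gen He 49980 16) (f : He ⧸ HJ ≃ Fin 49980),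
    X.nets = HeJ.par.nets ∧
    (∀ W : List He.Gen, X.ev W = PresentedGroup.mk Rel ((W.map FreeGroup.of).prod)) ∧
    (∀ g, f (QuotientGroup.mk g) = X.φ g 0) :=
  cox_main2 He.edges He.extra 49980 16 HeJ.par HeJ.extraW hnodes hlettersJ hidxJ hextraJ rfl
    HeJ.hstat 7 HeJ.tree HeK.stepsA HeJ.parB HeJ.stepsB 9939 HeK.hA rfl HeJ.hB

theorem mainB : ∃ (X : Act He.Gen He 2058 12) (f : He ⧸ HB ≃ Fin 2058),
    X.nets = He2058.par.nets ∧
    (∀ W : List He.Gen, X.ev W = PresentedGroup.mk Rel ((W.map FreeGroup.of).prod)) ∧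
    (∀ g, f (QuotientGroup.mk g) = X.φ g 0) :=
  cox_main2 He.edges He.extra 2058 12 He2058.par He2058.extraW hnodes hlettersB hidxB hextraB
    rfl He2058.hstat 7 He2058.tree He2058.stepsA He2058.parB He2058.stepsB 536 He2058.hA rfl
    He2058.hB

/-- the sub-diagram on `c, d, a, e, f, g`. -/
def esub : Fin 6 → He.Gen := ![.c, .d, .a, .e, .f, .g]

theorem hsubNodes : ∀ x ∈ coxNodes HeQ1.edges, esub x ∈ coxNodes He.edges := by decide

theorem hsubLab : ∀ x ∈ coxNodes HeQ1.edges, ∀ y ∈ coxNodes HeQ1.edges,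
    coxLabel HeQ1.edges x y = coxLabel He.edges (esub x) (esub y) := by decide

theorem hsubExtra : ∀ r ∈ HeQ1.extra, PresentedGroup.mk Rel (FreeGroup.map esub r) = 1 := by
  intro r hr
  apply PresentedGroup.one_of_mem
  right
  show _ ∈ He.extra
  simp only [HeQ1.extra, List.mem_cons, List.mem_nil_iff, or_false] at hr
  rcases hr with rfl | rfl | rfl
  · simp [He.extra, esub, He.a, He.b, He.c, He.d, He.e, He.f, He.g]
  · simp [He.extra, esub, He.a, He.b, He.c, He.d, He.e, He.f, He.g]
  · simp [He.extra, esub, He.a, He.b, He.c, He.d, He.e, He.f, He.g]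

theorem hsubsJ : ∀ W ∈ HeJ.par.subs, ∃ W' ∈ HeQ1J.par.subs, W = W'.map esub := by
  decide +kernel

theorem card_le : Finite He ∧ Nat.card He ≤ 49980 * 80640 := by
  obtain ⟨X, f, -, -, -⟩ := mainJ
  exact card_le_of_presHom_words He.edges He.extra HeQ1.edges HeQ1.extra esub hsubNodes hsubLab
    hsubExtra HeQ1J.par.subs 80640 HeQ1.card_le.1 HeQ1.card_J HeJ.par.subs hsubsJ 49980 f

instance finite : Finite He := card_le.1

/-- the action on the 2058 cosets is faithful, and the order of the group. -/
theorem faithful : ∃ (X : Act He.Gen He 2058 12) (f : He ⧸ HB ≃ Fin 2058),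
    X.nets = He2058.par.nets ∧
    (∀ W : List He.Gen, X.ev W = PresentedGroup.mk Rel ((W.map FreeGroup.of).prod)) ∧
    (∀ g, f (QuotientGroup.mk g) = X.φ g 0) ∧ Function.Injective X.φ ∧
    Nat.card He = 4030387200 := by
  obtain ⟨X, f, hnets, hev, hf⟩ := mainB
  have h := X.injective_of_chainW HeS.levelsW (by rw [hnets]; exact HeS.hchainW)
    4030387200 (le_trans card_le.2 (by norm_num)) (by rw [HeS.hprodW])
  exact ⟨X, f, hnets, hev, hf, h.1, h.2⟩

theorem card : Nat.card He = 4030387200 := by
  obtain ⟨X, f, -, -, -, -, h⟩ := faithful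
  exact h

theorem simple : IsSimpleGroup He := by
  obtain ⟨X, f, hnets, hev, hf, hinj, hcard⟩ := faithful
  have hH : HB = Subgroup.closure {g | ∃ W ∈ He2058.par.subs, g = X.ev W} := by
    unfold HB
    congr 1
    ext g
    constructor
    · rintro ⟨W, hW, rfl⟩; exact ⟨W, hW, (hev W).symm⟩
    · rintro ⟨W, hW, rfl⟩; exact ⟨W, hW, hev W⟩
  have hs : ∀ x, X.s x = PresentedGroup.of x := by
    intro x
    have := hev [x]
    simp only [Act.ev, List.map_cons, List.map_nil, List.prod_cons, List.prod_nil,
      mul_one] at this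
    exact this
  have hgen : Subgroup.closure (Set.range X.s) = ⊤ := by
    have h1 : X.s = PresentedGroup.of (rels := Rel) := funext hs
    rw [h1]
    exact PresentedGroup.closure_range_of _
  have hprim := X.isPreprimitive_of_orbs HB f hf He2058.par.subs hH HePrim.orbs HePrim.hcov
    (by rw [hnets]; exact HePrim.hprim)
  refine X.isSimpleGroup_of_prime hinj hprim hgen 7 (by norm_num) ?_ (by rw [hcard]; norm_num)
    HeS.wit ?_
  · intro j hj
    rw [hcard] at hj
    have : j = 1958400 := by omega
    rw [this]; norm_num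
  · intro x
    have h := List.all_eq_true.mp HeS.hwit x (hlettersB x)
    rw [hnets]; exact h

end Cfsg.Agent.Lib.Helper13.HeO
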