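import Cfsg.Agent.Lib.Helper13.HeQ1A0
import Cfsg.Agent.Lib.Helper13.HeQ1A1
import Cfsg.Agent.Lib.Helper13.HeQ1A2
import Cfsg.Agent.Lib.Helper13.HeQ1A3
import Cfsg.Agent.Lib.Helper13.HeQ1A4
import Cfsg.Agent.Lib.Helper13.HeQ1A5
import Cfsg.Agent.Lib.Helper13.HeQ1A6
import Cfsg.Agent.Lib.Helper13.HeQ1A7
import Cfsg.Agent.Lib.Helper13.HeQ1A8
set_option autoImplicit false
set_option maxRecDepth 100000

open Cfsg.Agent.Lib.Helper13.CE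

namespace Cfsg.Agent.Lib.Helper13.HeQ1

theorem hT : treeOK par 6 tree Zs0 = true := by decide +kernel
theorem hcov : coverOK par ⟨Zs1, Ls5, 1247, parB.AR.flatten.reverse, parB.AS.reverse⟩ = true := by decide +kernel
theorem hrun : runA par ⟨Zs0, List.replicate 6 0, 1, [], []⟩ stepsA = some ⟨Zs1, Ls5, 1247, parB.AR.flatten.reverse, parB.AS.reverse⟩ :=
  (runA_chunk_cons2 par Zs0 (List.replicate 6 0) 1 sA0 _ Zs1 Ls1 106 _ _ _ hC0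
    (runA_chunk_cons2 par Zs1 Ls1 106 sA1 _ Zs1 Ls2 412 _ _ _ hC1
    (runA_chunk_cons2 par Zs1 Ls2 412 sA2 _ Zs1 Ls3 705 _ _ _ hC2
    (runA_chunk_cons2 par Zs1 Ls3 705 sA3 _ Zs1 Ls4 1053 _ _ _ hC3
    (runA_chunk_cons2 par Zs1 Ls4 1053 sA4 _ Zs1 Ls5 1247 _ _ _ hC4
    (runA_chunk_cons2 par Zs1 Ls5 1247 sA5 _ Zs1 Ls5 1247 _ _ _ hC5
    (runA_chunk_cons2 par Zs1 Ls5 1247 sA6 _ Zs1 Ls5 1247 _ _ _ hC6
    (runA_chunk_cons2 par Zs1 Ls5 1247 sA7 _ Zs1 Ls5 1247 _ _ _ hC7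
    (runA_of_chunkOK par Zs1 Ls5 1247 sA8 Zs1 Ls5 1247 _ _ hC8))))))))).trans
    (some_StA_eq _ _ _ _ _ _ rfl rfl rfl (by decide +kernel) (by decide +kernel))
theorem hA : checkA par 6 tree stepsA parB.AR.flatten parB.AS 1247 = true :=
  checkA_of_parts par 6 tree stepsA _ _ 1247 Zs0 Zs1 Ls5 hT hrun hcov

end Cfsg.Agent.Lib.Helper13.HeQ1
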