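import Cfsg.Agent.Lib.Helper13.He2058Data
import Cfsg.Agent.Lib.Helper13.CosetBase
set_option autoImplicit false
set_option maxRecDepth 100000

open Cfsg.Agent.Lib.Helper13.CE

namespace Cfsg.Agent.Lib.Helper13.HeS

def levelsW : List (List (List (Cfsg.Spor.He.Gen)) × ℕ × List ℕ × ℕ) := [([[.a], [.b], [.c], [.d], [.e], [.f], [.g]], 0, [1, 2, 3, 4, 5, 6, 2, 3, 4, 5, 6, 1, 2, 3, 4, 5, 6, 1, 2, 3, 4, 5, 6, 1, 2, 3, 4, 5, 6, 1], 2058),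
  ([[.a], [.c], [.d], [.e], [.f], [.b, .a, .b], [.b, .c, .d, .g, .d, .c, .b], [.g, .f, .g], [.g, .d, .c, .b, .e, .a, .b, .c, .d, .g]], 698, [1, 2, 3, 4, 6, 7, 8, 1, 2, 3, 4, 6, 7, 8, 1, 2, 3, 4, 6, 8, 1, 2, 3], 1360),
  ([[.a], [.d], [.e], [.f], [.b, .a, .b], [.c, .d, .b, .c, .d, .g, .d, .c, .b, .d, .b, .c, .d, .g, .d, .c, .b, .d, .c], [.g, .f, .g], [.c, .b, .a, .b, .c]], 729, [1, 2, 3, 4, 5, 1, 2, 3, 5, 1, 2, 3, 1], 360),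
  ([[.a], [.f, .d, .b, .a, .b, .e, .d, .f], [.e, .d, .f, .d, .c, .b, .a, .b, .c]], 5, [0, 1], 4)]
def wit : Cfsg.Spor.He.Gen → List (List (Cfsg.Spor.He.Gen))
  | .a => [[.d, .f, .g, .d, .f], [.d, .g, .c, .g, .d, .f, .d, .g]]
  | .b => [[.d, .f, .g, .d, .f], [.f, .c, .d, .c, .e, .g]]
  | .c => [[.d, .f, .g, .d, .f]]
  | .d => [[.e, .d, .f, .g]]
  | .e => [[.f, .d, .e, .g]]
  | .f => [[.d, .g, .d, .e, .f, .d, .f]]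
  | .g => [[.d, .f, .g, .d, .f]]

end Cfsg.Agent.Lib.Helper13.HeS
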